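import Cfsg.Agent.Lib.J2.Stab

/-!
# The centralizer of a 2-central involution of `J₂` is `2^{1+4}_- : A₅`
-/

set_option autoImplicit false

namespace Cfsg.Lib.JJ
open Quaternion Cfsg.Spor Equiv Subgroup Cfsg.Lib.FT Cfsg.Lib.FT.O4

noncomputable abbrev KK : Subgroup twoJ2 := C1[RR 0]

theorem mem_KK {g : twoJ2} : g ∈ KK ↔ g * RR 0 = RR 0 * g := mem_centralizer_singleton_iff

theorem XX_mem (i : Fin 5) : XX i ∈ KK := mem_KK.2 (ext_ap fun x => by
  funext t; fin_cases i <;> fin_cases t <;> simp [XX, rc_ap, RR_ap])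

theorem NN_mem : NN ∈ KK := mem_KK.2 (NN_comm _).symm

noncomputable def xk (i : Fin 5) : KK := ⟨XX i, XX_mem i⟩
noncomputable def zk : KK := ⟨ZZ, ZZ_eq ▸ mul_mem NN_mem (mem_KK.2 rfl)⟩

theorem ext_k {g k : KK} (h : ∀ x, (g.1.1 x).1 = (k.1.1 x).1) : g = k := Subtype.ext (ext_ap h)

theorem XX_cast (i : Fin 4) : XX i.castSucc = rc i := by fin_cases i <;> rfl

theorem cq_anti {i j : Fin 4} (h : i ≠ j) :
    cq j * star (cq i) = -(cq i * star (cq j)) ∧ star (cq j) * cq i = -(star (cq i) * cq j) := by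
  fin_cases i <;> fin_cases j <;> simp [cq, Quaternion.ext_iff] at h ⊢

theorem XX_xx (i j : Fin 5) (h : i ≠ j) : XX i * XX j = ZZ * (XX j * XX i) := ext_ap fun x => by
  have e : XX 4 = RR 1 := rfl
  funext t
  induction i using Fin.lastCases <;> induction j using Fin.lastCases
  · exact absurd rfl h
  · fin_cases t <;> simp [XX_cast, e, rc_ap, RR_ap, ZZ_ap]
  · fin_cases t <;> simp [XX_cast, e, rc_ap, RR_ap, ZZ_ap]
  · have := cq_anti fun e => h (congrArg _ e)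
    fin_cases t <;> simp [XX_cast, rc_ap, ZZ_ap, mul_assoc, this]

theorem cl0k : Cl0 xk zk where
  z1 e := by
    have := congrArg (fun g : KK => ((g.1.1 (ee 1)).1 1).re) e
    simp [zk, ZZ_ap, ee] at this
    norm_num at this
  z2 := ext_k fun x => by funext t; fin_cases t <;> simp [zk, ZZ_ap]
  zc g := Subtype.ext (by
    simpa [zk, ZZ_eq] using ((show Commute g.1 NN from NN_comm g).mul_right (mem_KK.1 g.2)).eq)
  x2 i := Subtype.ext (show XX i * XX i = 1 by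
    induction i using Fin.lastCases
    exacts [rho_sq _ (ee_ee 1), by rw [XX_cast]; exact rho_sq _ (r12_n _)])
  xx i j ij := Subtype.ext (XX_xx i j ij)
  xp := ext_k fun x => by
    funext t
    fin_cases t <;> simp [xk, XX, rc_ap, RR_ap, cq]
    all_goals ext <;> simp

theorem exists_ack (g : KK) : ∃ σ, Ac xk zk g σ := cl0k.exists_ac fun i => by
  obtain ⟨r, h, e, r0⟩ : ∃ r h, XX i = rho r h ∧ r.1 0 = 0 := by
    fin_cases i
    exacts [⟨_, r12_n 0, rfl, rfl⟩, ⟨_, r12_n 1, rfl, rfl⟩, ⟨_, r12_n 2, rfl, rfl⟩, ⟨_, r12_n 3, rfl, rfl⟩,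
      ⟨_, ee_ee 1, rfl, by simp [ee]⟩]
  obtain ⟨w, -, -, hw⟩ := diag_of (mem_KK.1 g.2)
  obtain ⟨j, hj⟩ := classify ((iso g.1 r r).trans h) (by rw [hw, r0, zero_mul])
  rw [← conj_rho _ _ h, ← e] at hj
  exact ⟨j, hj.imp Subtype.ext Subtype.ext⟩

noncomputable def dk (i : Fin 4) : KK := ⟨DD i, mem_KK.2 (ext_ap fun x => by
  funext t; fin_cases t <;> simp [DD_ap, RR_ap])⟩

theorem ac_dk : Ac xk zk (dk 1) al ∧ Ac xk zk (dk 2) be := by
  have e : ∀ g a b : KK, g * a * g⁻¹ = b ↔ ∀ x t, ((g * a).1.1 x).1 t = ((b * g).1.1 x).1 t := fun g a b =>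
    mul_inv_eq_iff_eq_mul.trans ⟨fun e x t => e ▸ rfl, fun h => ext_k fun x => funext (h x)⟩
  refine ⟨fun i => ?_, fun i => ?_⟩ <;> simp only [e] <;> fin_cases i <;>
    simp [Fin.forall_fin_succ, al, be, swap_apply_def, dk, xk, zk, XX, rc_ap, RR_ap, ZZ_ap, DD_ap, cq,
      Quaternion.ext_iff]

theorem YY_spec : YY ∈ KK ∧ YY * XX 4 * YY⁻¹ = XX 1 := by
  have := tau_sq
  have e0 : (YY.1 (ee 0)).1 = ![-icoH * qI * star icoH, 0, 0] := by
    funext t
    fin_cases t <;> ext <;> simp [YY, rho_ap, qrefl, qip_eq, ee, av, av', sqrt5] <;> grind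
  have e1 : (YY.1 (ee 1)).1 = ![0, pp, pp * cq 1] := by
    funext t
    fin_cases t <;> ext <;> simp [YY, rho_ap, qrefl, qip_eq, ee, av, av', sqrt5, pp, cq] <;> grind
  refine ⟨mem_KK.2 (mul_inv_eq_iff_eq_mul.1 ((conj_rho ..).trans (ext_ap fun x => ?_))),
    (conj_rho _ _ (ee_ee 1)).trans (ext_ap fun x => ?_)⟩
  · rw [RR_ap, rho1 _ 0 fun s hs => by fin_cases s <;> simp_all]
  · rw [rho12 _ (cq_norm 1) (by simp [e1]) (by simp [e1])]; exact (rc_ap 1 x).symm

theorem sur_k (σ : S5) (hσ : ev σ) : ∃ g, Ac xk zk g σ := by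
  obtain ⟨τ, hτ⟩ := exists_ack ⟨YY, YY_spec.1⟩
  refine cl0k.sur_of ac_dk.1 ac_dk.2 hτ (fun e => ?_) σ hσ
  exact absurd (cl0k.x_inj (j := 1) (hτ 4) (.inl (Subtype.ext YY_spec.2))) (by rw [e]; decide)

theorem rel {g : KK} {u a b : ℍ[ℝ]} (hg : ∀ x, (g.1.1 x).1 = ![x.1 0 * u, x.1 1 * a, x.1 2 * b]) {i j : Fin 4} :
    (g * xk i.castSucc * g⁻¹ = xk j.castSucc → cq i * b = a * cq j) ∧
      (g * xk i.castSucc * g⁻¹ = zk * xk j.castSucc → cq i * b = -(a * cq j)) := by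
  constructor <;> intro h <;>
    have := congrArg (fun k : KK => (k.1.1 (ee 1)).1 2) (mul_inv_eq_iff_eq_mul.1 h) <;>
    simp only [xk, zk, XX_cast, Subgroup.coe_mul, Perm.mul_apply, hg, rc_ap, ZZ_ap, ee] at this <;>
    refine mul_left_cancel₀ two_ne ?_
  · simpa [mul_assoc] using this
  · simpa [mul_assoc, neg_eq_iff_eq_neg] using this

theorem even_k (g : KK) : ∃ σ, ev σ ∧ Ac xk zk g σ := by
  obtain ⟨σ, hσ⟩ := exists_ack g
  refine ⟨σ, by_contra fun e => ?_, hσ⟩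
  obtain ⟨k, hk⟩ := sur_k (σ⁻¹ * swap 0 1) (by
    simp [ev, (Int.units_eq_one_or _).resolve_left e])
  have h1 := cl0k.ac_mul hσ hk
  rw [mul_inv_cancel_left] at h1
  obtain ⟨g, h1, h2⟩ : ∃ g, Ac xk zk g (swap 0 1) ∧ g * xk 4 * g⁻¹ = xk 4 := by
    rcases h1 4 with e | e
    · exact ⟨_, h1, e⟩
    · refine ⟨xk 0 * (g * k), by simpa [cl0k.κx] using cl0k.ac_mul (cl0k.ac_κ (xm 0)) h1, ?_⟩
      rw [show xk 0 * (g * k) * xk 4 * (xk 0 * (g * k))⁻¹ = xk 0 * (g * k * xk 4 * (g * k)⁻¹) * (xk 0)⁻¹ by group,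
        e, ← mul_assoc, cl0k.zc, mul_assoc zk, show swap (0 : Fin 5) 1 4 = 4 by decide, cl0k.xx 0 4 (by decide),
        ← mul_assoc, cl0k.z2]
      simp
  obtain ⟨u, -, a, ha, b, -, a1, hg⟩ := diag (mem_KK.1 g.2) (congrArg Subtype.val (mul_inv_eq_iff_eq_mul.1 h2))
  have e : ∀ i j : Fin 4, swap (0 : Fin 5) 1 i.castSucc = j.castSucc → _ := fun i j e =>
    (e ▸ h1 i.castSucc).imp (rel hg (i := i) (j := j)).1 (rel hg).2
  have e0 := e 0 1 (by decide)
  have e1 := e 1 0 (by decide)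
  have e2 := e 2 2 (by decide)
  clear e
  obtain ⟨k1, k2⟩ := sq_ne_two ha
  rw [normSq_def'] at a1
  simp only [cq, Matrix.cons_val_zero, one_mul] at e0
  rcases e0 with rfl | rfl <;> rcases e1 with e1 | e1 <;> rcases e2 with e2 | e2 <;>
    simp [cq, Quaternion.ext_iff] at e1 e2 <;> grind

theorem cen_k {g : KK} (h : ∀ i, g * xk i * g⁻¹ = xk i) : g.1 = 1 ∨ g.1 = NN ∨ g.1 = ZZ ∨ g.1 = NN * ZZ := by
  obtain ⟨u, -, a, ha, b, u1, a1, hg⟩ := diag (mem_KK.1 g.2) (congrArg Subtype.val (mul_inv_eq_iff_eq_mul.1 (h 4)))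
  have e0 := (rel hg (i := 0)).1 (h _)
  have e1 := (rel hg (i := 1)).1 (h _)
  have e2 := (rel hg (i := 2)).1 (h _)
  simp only [cq, Matrix.cons_val_zero, one_mul, mul_one] at e0
  subst e0
  have e3 : b = 1 ∨ b = -1 := by
    rw [normSq_def'] at a1
    simp [cq, Quaternion.ext_iff] at e1 e2 ⊢
    grind
  obtain ⟨w, hw, e4⟩ := qip_mem (g.1.1 bv0).2 bv0.2
  have e5 : ∃ y ∈ icosians, u = 1 + 2 * y := by
    simp only [hg, qip_eq, bv0] at e4
    rcases e3 with rfl | rfl <;> simp [hh'] at e4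
    · exact ⟨_, sub_mem hw (ofNat_mem _ 2), by rw [eq_sub_of_add_eq (eq_sub_of_add_eq e4)]; ext <;> simp <;> ring⟩
    · exact ⟨_, add_mem hw (one_mem _), by rw [eq_sub_of_add_eq (eq_sub_of_add_eq e4)]; ext <;> simp <;> ring⟩
  have e6 : u = 1 ∨ u = -1 := by
    obtain ⟨i, e⟩ := unit_int (.inl e5) u1
    obtain ⟨y, hy, e5⟩ := e5
    obtain ⟨m, n, e6, -⟩ := normSq_mem hy
    by_cases hi : i = 0
    · simpa [hi, cq] using e
    have : u.re = 0 := by rcases e with e | e <;> rw [e] <;> fin_cases i <;> simp [cq] at hi ⊢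
    have e7 := congrArg normSq (sub_eq_of_eq_add' e5)
    rw [map_mul, e6, sub_eq_add_neg, normSq_add, u1, ← two_coe, normSq_coe] at e7
    simp [this] at e7
    have := (irr (a := 2 * m - 1) (b := 2 * n) (by push_cast; linarith)).1
    omega
  rcases e6 with rfl | rfl <;> rcases e3 with rfl | rfl
  · exact .inl (ext_ap fun x => by funext t; fin_cases t <;> simp [hg])
  · exact .inr (.inr (.inl (ext_ap fun x => by simp [hg, ZZ_ap])))
  · exact .inr (.inr (.inr (ext_ap fun x => by simp [hg, ZZ_ap, NN_ap])))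
  · exact .inr (.inl (ext_ap fun x => by funext t; fin_cases t <;> simp [hg, NN_ap]))

theorem inv_k : ∃ t : KK, t.1 * t = NN ∧ Ac xk zk t al :=
  ⟨dk 1 * xk 0 * xk 2, ext_ap fun x => by
    funext t
    fin_cases t <;> ext <;> simp [dk, xk, XX, rc_ap, DD_ap, NN_ap, cq], by
    simpa [cl0k.κx] using cl0k.ac_mul (cl0k.ac_mul ac_dk.1 (cl0k.ac_κ (xm 0))) (cl0k.ac_κ (xm 2))⟩

theorem mem_cen {c : twoJ2} : c ∈ center twoJ2 ↔ c = 1 ∨ c = NN := by
  refine ⟨fun h => ?_, ?_⟩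
  · have h1 := mem_center_iff.1 h
    have h2 : RR 0 * rho av av_n.1 ≠ rho av av_n.1 * RR 0 := fun e => by
      obtain ⟨w, -, -, hw⟩ := diag_of e.symm
      have := congrArg (·.imI) (hw (ee 1))
      simp [rho_ap, qrefl, qip_eq, av, ee] at this
    rcases cen_k (g := ⟨c, mem_KK.2 (h1 _).symm⟩) fun i => Subtype.ext (by simp [← h1]) with e | e | e | e
    · exact .inl e
    · exact .inr e
    · obtain rfl : c = NN * RR 0 := e.trans ZZ_eq
      exact absurd (by simpa [mul_assoc, ← mul_assoc _ NN, NN_comm] using (h1 (rho av av_n.1)).symm) h2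
    · obtain rfl : c = RR 0 := e.trans (by rw [ZZ_eq, ← mul_assoc, NN_sq, one_mul])
      exact absurd (h1 _).symm h2
  · rintro (rfl | rfl)
    exacts [one_mem _, mem_center_iff.2 NN_comm]

theorem mk_eq {g k : twoJ2} : (g : J2) = k ↔ g = k ∨ g = NN * k := by
  rw [QuotientGroup.eq_iff_div_mem, mem_cen, div_eq_one, div_eq_iff_eq_mul]

noncomputable def z0 : J2 := ZZ

theorem exists_cl : ∃ (x : Fin 5 → C1[z0]) (z : C1[z0]), z.1 = z0 ∧ Cl x z := by
  let π : KK →* C1[z0] := ((QuotientGroup.mk' _).comp KK.subtype).codRestrict _ fun g =>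
    mem_centralizer_singleton_iff.2 (congrArg (fun k : KK => (k.1 : J2)) (cl0k.zc g))
  have hπ : ∀ g k, π g = π k ↔ g.1 = k.1 ∨ g.1 = NN * k.1 := fun g k => Subtype.ext_iff.trans mk_eq
  have hs : Function.Surjective π := by
    rintro ⟨y, hy⟩
    obtain ⟨g, rfl⟩ := QuotientGroup.mk_surjective y
    refine ⟨⟨g, mem_KK.2 ?_⟩, rfl⟩
    rcases (mk_eq (g := g * ZZ) (k := ZZ * g)).1 (mem_centralizer_singleton_iff.1 hy) with e | e
    · simpa [ZZ_eq, mul_assoc, ← mul_assoc _ NN, NN_comm] using e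
    exfalso
    have e1 : rho _ _ = ZZ := (conj_rho g _ (ee_ee 0)).symm.trans (by
      rw [mul_inv_eq_iff_eq_mul, ← mul_right_inj NN, ← e, ZZ_eq, ← mul_assoc, ← mul_assoc, NN_comm]; rfl)
    obtain ⟨j, hj⟩ := classify ((iso g _ _).trans (ee_ee 0)) (by
      have := congrFun ((rho_ap _ _ (g.1 (ee 0))).symm.trans (e1 ▸ ZZ_ap _)) 0
      simp only [qrefl, iso, ee_ee, Matrix.cons_val_zero, sub_eq_self, mul_eq_zero] at this
      exact this.resolve_left fun e => by simpa using congrArg (·.re) e)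
    obtain ⟨i, hi⟩ := exists_ne j
    have e2 := cl0k.xx i j hi
    rw [e1] at hj
    rcases hj with e | e
    · rw [← show zk = xk j from Subtype.ext e, cl0k.zc] at e2
      exact cl0k.z1 (by simpa using e2)
    · rw [show xk j = 1 from Subtype.ext (by simpa [xk] using e)] at e2
      exact cl0k.z1 (by simpa using e2)
  have ac : ∀ g σ, Ac xk zk g σ → Ac (fun i => π (xk i)) (π zk) (π g) σ := fun g σ h i => by
    simpa only [map_mul, map_inv] using (h i).imp (congrArg π) (congrArg π)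
  have πN : ∀ g : KK, g.1 = NN → π g = 1 := fun g e => by rw [← map_one π, hπ]; exact .inr (by simpa using e)
  refine ⟨fun i => π (xk i), π zk, rfl, ⟨fun e => ?_, by rw [← map_mul, cl0k.z2, map_one],
    fun g => Subtype.ext (mem_centralizer_singleton_iff.1 g.2), fun i => by rw [← map_mul, cl0k.x2, map_one],
    fun i j ij => by simp only [← map_mul, cl0k.xx i j ij], by simp only [← map_mul, cl0k.xp]⟩,
    fun g => ?_, fun σ hσ => ?_, fun g h => ?_, ?_⟩
  · rcases (hπ zk 1).1 (e.trans (map_one π).symm) with e | e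
    · exact cl0k.z1 (Subtype.ext e)
    · have := congrArg (fun g : twoJ2 => ((g.1 (ee 0)).1 0).re) e
      simp [zk, ZZ_ap, NN_ap, ee] at this
      norm_num at this
  · obtain ⟨g, rfl⟩ := hs g
    obtain ⟨σ, h1, h2⟩ := even_k g
    exact ⟨σ, h1, ac g σ h2⟩
  · obtain ⟨g, h⟩ := sur_k σ hσ
    exact ⟨_, ac g σ h⟩
  · obtain ⟨g, rfl⟩ := hs g
    obtain ⟨w, -, w1, hw⟩ := diag_of (mem_KK.1 g.2)
    rcases cen_k (g := g) fun i => mul_inv_eq_iff_eq_mul.2 (Subtype.ext (((hπ (g * xk i) (xk i * g)).1 (by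
      rw [map_mul, map_mul, ← mul_inv_eq_iff_eq_mul, h])).resolve_right fun e => by
        have e1 : ∀ x, ((XX i).1 x).1 0 = x.1 0 := fun x => by fin_cases i <;> simp [XX, rc_ap, RR_ap]
        have := congrArg (fun g : twoJ2 => (g.1 (ee 0)).1 0) e
        simp only [xk, Subgroup.coe_mul, Perm.mul_apply, hw, e1, NN_ap, Pi.neg_apply, ee, Pi.single_eq_same] at this
        rw [eq_neg_iff_add_eq_zero, ← two_mul, mul_eq_zero, mul_eq_zero, or_iff_right two_ne,
          or_iff_right two_ne] at this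
        simp [this] at w1)) with e | e | e | e
    exacts [.inl (by rw [show g = 1 from Subtype.ext e, map_one]), .inl (πN g e),
      .inr (congrArg π (Subtype.ext e)), .inr ((hπ _ _).2 (.inr e))]
  · obtain ⟨t, h1, h2⟩ := inv_k
    exact ⟨π t, by rw [← map_mul, πN _ h1], ac t _ h2⟩

end Cfsg.Lib.JJ
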