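import Cfsg.Agent.Lib.SC.Build
import Cfsg.Agent.Lib.Hay.Gas
import Mathlib.GroupTheory.SemidirectProduct

/-!
# The group `2^{1+4}_- : A₅`: model and recognition
-/

set_option autoImplicit false

namespace Cfsg.Lib.JJ
open Subgroup Cfsg.Lib Cfsg.Lib.FT Cfsg.Lib.FT.O4 Equiv

/-- the extraspecial group of order 32 and minus type -/
@[ext] structure Qm where
  e : Bool
  a : Bool
  b : Bool
  c : Bool
  d : Bool
  deriving DecidableEq, Fintype

def Qm.s (p q : Qm) : Bool := (q.a && (p.b ^^ p.c ^^ p.d)) ^^ (q.b && (p.c ^^ p.d)) ^^ (q.c && p.d)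
instance : Mul Qm := ⟨fun p q => ⟨p.e ^^ q.e ^^ p.s q, p.a ^^ q.a, p.b ^^ q.b, p.c ^^ q.c, p.d ^^ q.d⟩⟩
instance : One Qm := ⟨⟨false, false, false, false, false⟩⟩
instance : Inv Qm := ⟨fun p => ⟨p.e ^^ p.s p, p.a, p.b, p.c, p.d⟩⟩
instance : Group Qm := Group.ofLeftAxioms (fun p q r => Qm.ext (by
    change ((p.e ^^ q.e ^^ p.s q) ^^ r.e ^^ Qm.s ⟨_, _, _, _, _⟩ r) =
      (p.e ^^ (q.e ^^ r.e ^^ q.s r) ^^ p.s ⟨_, _, _, _, _⟩)
    haveI : Std.Commutative xor := ⟨Bool.xor_comm⟩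
    simp only [Qm.s, Bool.and_xor_distrib_left, Bool.and_xor_distrib_right]
    ac_rfl) (Bool.xor_assoc ..) (Bool.xor_assoc ..) (Bool.xor_assoc ..)
    (Bool.xor_assoc ..)) (by decide +kernel) (by decide +kernel)

def zm : Qm := ⟨true, false, false, false, false⟩
def xm : Fin 5 → Qm := ![⟨false, true, false, false, false⟩, ⟨false, false, true, false, false⟩,
  ⟨false, false, false, true, false⟩, ⟨false, false, false, false, true⟩, ⟨false, true, true, true, true⟩]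

variable {X : Type*} [Group X]

structure Cl0 (x : Fin 5 → X) (z : X) : Prop where
  z1 : z ≠ 1
  z2 : z * z = 1
  zc : ∀ g, g * z = z * g
  x2 : ∀ i, x i * x i = 1
  xx : ∀ i j, i ≠ j → x i * x j = z * (x j * x i)
  xp : x 0 * (x 1 * (x 2 * x 3)) = x 4

def kf (x : Fin 5 → X) (z : X) (q : Qm) : X :=
  cond q.e z 1 * (cond q.a (x 0) 1 * (cond q.b (x 1) 1 * (cond q.c (x 2) 1 * (cond q.d (x 3) 1 * 1))))

def Ac (x : Fin 5 → X) (z g : X) (σ : S5) : Prop :=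
  ∀ i, g * x i * g⁻¹ = x (σ i) ∨ g * x i * g⁻¹ = z * x (σ i)

theorem kf_m : ∀ q, kf xm zm q = q := by decide +kernel

theorem d_real : ∀ σ : S5, ev σ → ∃ s, s * s = 1 ∧ s * σ * (s * σ) = 1 ∧ ev s := by decide +kernel
theorem d_fixp : ∀ s : S5, s * s = 1 → ∃ k, s k = k := by decide +kernel
theorem d_prod : ∀ σ : S5, ev σ → xm (σ 0) * (xm (σ 1) * (xm (σ 2) * xm (σ 3))) = xm (σ 4) := by decide +kernel
theorem d_sign : ∀ ε : Fin 5 → Bool, cond (ε 0) zm 1 * xm 0 * (cond (ε 1) zm 1 * xm 1 * (cond (ε 2) zm 1 * xm 2 *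
    (cond (ε 3) zm 1 * xm 3))) = cond (ε 4) zm 1 * xm 4 → ∃ q, ∀ i, cond (ε i) zm 1 * xm i = q * xm i * q⁻¹ := by
  decide +kernel

theorem hom_ext {f g : Qm →* X} (h : ∀ i, f (xm i) = g (xm i)) : f = g := by
  have hz : f zm = g zm := by
    rw [show zm = xm 0 * xm 1 * xm 0 * xm 1 by decide]; simp only [map_mul, h]
  ext q
  rw [← kf_m q]
  rcases q with ⟨_ | _, _ | _, _ | _, _ | _, _ | _⟩ <;> simp [kf, h, hz]

theorem cl0_1 : Cl0 xm zm := ⟨by decide, by decide, by decide, by decide, by decide, by decide⟩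

namespace Cl0
variable {x : Fin 5 → X} {z : X} (h : Cl0 x z)
include h

theorem kf_mul (p q : Qm) : kf x z (p * q) = kf x z p * kf x z q := by
  have e1 : ∀ (e f : Bool) r, cond e z 1 * (cond f z 1 * r) = cond (e ^^ f) z 1 * r := fun e f r => by
    cases e <;> cases f <;> simp [← mul_assoc, h.z2]
  have e2 : ∀ i (e f : Bool) r, cond e (x i) 1 * (cond f (x i) 1 * r) = cond (e ^^ f) (x i) 1 * r :=
    fun i e f r => by cases e <;> cases f <;> simp [← mul_assoc, h.x2]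
  have e3 : ∀ i (e f : Bool) r, cond e (x i) 1 * (cond f z 1 * r) = cond f z 1 * (cond e (x i) 1 * r) :=
    fun i e f r => by cases e <;> cases f <;> simp [← mul_assoc, h.zc]
  have e4 : ∀ i j, j < i → ∀ (e f : Bool) r, cond e (x i) 1 * (cond f (x j) 1 * r) =
      cond (f && e) z 1 * (cond f (x j) 1 * (cond e (x i) 1 * r)) := fun i j ij e f r => by
    cases e <;> cases f <;> simp [← mul_assoc, h.xx i j ij.ne']
  simp only [kf, mul_assoc, one_mul, e1, e2, e3, e4 1 0 (by decide), e4 2 0 (by decide), e4 3 0 (by decide),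
    e4 2 1 (by decide), e4 3 1 (by decide), e4 3 2 (by decide)]
  congr 2
  revert p q
  decide +kernel

def κ : Qm →* X := MonoidHom.mk' (kf x z) h.kf_mul

theorem κz : h.κ zm = z := by simp [κ, kf, zm]

theorem κx (i : Fin 5) : h.κ (xm i) = x i := by
  fin_cases i <;> simp [κ, kf, xm, h.xp]

theorem κinj : Function.Injective h.κ := (injective_iff_map_eq_one _).2 fun q e => by
  rcases (by decide +kernel : ∀ q : Qm, q = 1 ∨ q = zm ∨ ∃ p, q * p * q⁻¹ * p⁻¹ = zm) q with h1 | rfl | ⟨p, h1⟩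
  · exact h1
  · exact absurd (h.κz ▸ e) h.z1
  · exact absurd (by rw [← h.κz, ← h1]; simp [e]) h.z1

theorem ac_mul {g k : X} {σ τ : S5} (h1 : Ac x z g σ) (h2 : Ac x z k τ) : Ac x z (g * k) (σ * τ) := fun i => by
  have e : g * (z * x (τ i)) * g⁻¹ = z * (g * x (τ i) * g⁻¹) := by rw [← mul_assoc g, h.zc]; group
  rw [show g * k * x i * (g * k)⁻¹ = g * (k * x i * k⁻¹) * g⁻¹ by group, Perm.mul_apply]
  rcases h2 i with e1 | e1 <;> rcases h1 (τ i) with e2 | e2 <;> simp only [e1, e, e2, true_or, or_true]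
  rw [← mul_assoc, h.z2, one_mul]; exact .inl rfl

theorem ac_inv {g : X} {σ : S5} (h1 : Ac x z g σ) : Ac x z g⁻¹ σ⁻¹ := fun i => by
  obtain ⟨i, rfl⟩ := σ.surjective i
  rw [Perm.inv_def, symm_apply_apply]
  refine (h1 i).imp (fun e => by rw [← e]; group) fun e => ?_
  rw [← one_mul (x (σ i)), ← h.z2, mul_assoc z, ← e, ← mul_assoc, h.zc]; group

theorem ac_κ (q : Qm) : Ac x z (h.κ q) 1 := fun i => by
  rw [← h.κx, ← h.κx, ← map_inv, ← map_mul, ← map_mul]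
  refine ((by decide +kernel : ∀ (q : Qm) i, q * xm i * q⁻¹ = xm i ∨ q * xm i * q⁻¹ = zm * xm i) q i).imp
    (congrArg _) fun e => by rw [e, map_mul, h.κz]; rfl

theorem x_inj {i j : Fin 5} {u : X} (h1 : u = x i ∨ u = z * x i) (h2 : u = x j ∨ u = z * x j) : i = j := by
  by_contra e
  have e1 : u * x i = x i * u := by rcases h1 with rfl | rfl <;> simp [mul_assoc, ← h.zc]
  have e2 := h.xx j i (Ne.symm e)
  rcases h2 with rfl | rfl
  · exact h.z1 (by simpa [e1] using e2)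
  · rw [mul_assoc, ← mul_assoc (x i), h.zc, mul_assoc, mul_right_inj] at e1
    exact h.z1 (by simpa [e1] using e2)

theorem ac_uniq {g : X} {σ τ : S5} (h1 : Ac x z g σ) (h2 : Ac x z g τ) : σ = τ :=
  Equiv.ext fun i => h.x_inj (h1 i) (h2 i)

theorem exists_ac {g : X} (h1 : ∀ i, ∃ j, g * x i * g⁻¹ = x j ∨ g * x i * g⁻¹ = z * x j) : ∃ σ, Ac x z g σ := by
  choose f hf using h1
  refine ⟨Equiv.ofBijective f (Finite.injective_iff_bijective.1 fun i j e => ?_), hf⟩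
  have e1 : ∀ u, g * u * g⁻¹ = z * x (f j) → g * (z * u) * g⁻¹ = x (f j) := fun u e => by
    rw [← mul_assoc g, h.zc, mul_assoc z, mul_assoc z, e, ← mul_assoc, h.z2, one_mul]
  have e2 : ∀ u v, g * u * g⁻¹ = g * v * g⁻¹ → u = v := fun u v e => by simpa using e
  refine h.x_inj (.inl rfl) ?_
  rcases hf i with h1 | h1 <;> rcases hf j with h2 | h2 <;> rw [e] at h1
  exacts [.inl (e2 _ _ (h1.trans h2.symm)), .inr (e2 _ _ (h1.trans (e1 _ h2).symm)),
    .inr (by rw [← e2 _ _ ((e1 _ h1).trans h2.symm), ← mul_assoc, h.z2, one_mul]),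
    .inl (e2 _ _ (h1.trans h2.symm))]

theorem sur_of {a b c : X} {τ : S5} (ha : Ac x z a al) (hb : Ac x z b be) (hc : Ac x z c τ) (h4 : τ 4 ≠ 4)
    (σ : S5) (hσ : ev σ) : ∃ g, Ac x z g σ := by
  let H : Subgroup S5 :=
    { carrier := {σ | ∃ g, Ac x z g σ}
      mul_mem' := fun ⟨_, a⟩ ⟨_, b⟩ => ⟨_, h.ac_mul a b⟩
      one_mem' := ⟨_, h.ac_κ 1⟩
      inv_mem' := fun ⟨_, a⟩ => ⟨_, h.ac_inv a⟩ }
  have h1 : ∀ i j, sg i j ∈ H := fun i j => by
    refine H.mul_mem ?_ ?_ <;> split_ifs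
    exacts [⟨_, ha⟩, one_mem _, ⟨_, hb⟩, one_mem _]
  have h2 : ∀ s, ev s → s * s = 1 → s ∈ H := fun s e1 e2 => by
    obtain ⟨k, hk⟩ := d_fixp s e2
    obtain ⟨t, ht, e3⟩ : ∃ t ∈ H, t 4 = k := by
      rcases eq_or_ne k 4 with rfl | e
      · exact ⟨1, one_mem _, rfl⟩
      obtain ⟨i, j, e3⟩ := (by decide +kernel : ∀ k l : Fin 5, k ≠ 4 → l ≠ 4 → ∃ i j, sg i j k = l) _ k h4 e
      exact ⟨sg i j * τ, H.mul_mem (h1 i j) ⟨_, hc⟩, e3⟩
    obtain ⟨i, j, e4⟩ := d_v4 (t⁻¹ * s * t) ⟨by simpa [ev, mul_right_comm _ (Perm.sign s)] using e1, by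
      rw [mul_assoc, ← mul_assoc t, ← mul_assoc t, mul_inv_cancel, one_mul, mul_assoc, ← mul_assoc s, e2]; simp,
      by simp [e3, hk, symm_apply_eq]⟩
    exact (H.mul_mem_cancel_left (H.inv_mem ht)).1 ((H.mul_mem_cancel_right ht).1 (e4 ▸ h1 i j))
  obtain ⟨s, e2, e3, e1⟩ := d_real σ hσ
  exact (H.mul_mem_cancel_left (h2 s e1 e2)).1 (h2 _ (ev_mul e1 hσ) e3)

theorem comp {σ : S5} (hσ : ev σ) : Cl0 (fun i => x (σ i)) z :=
  ⟨h.z1, h.z2, h.zc, fun _ => h.x2 _, fun _ _ e => h.xx _ _ (σ.injective.ne e), by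
    simpa only [map_mul, h.κx] using congrArg h.κ (d_prod σ hσ)⟩

theorem signs {g : X} {σ : S5} (h1 : Ac x z g σ) (hσ : ev σ) :
    ∃ q, ∀ i, g * x i * g⁻¹ = h.κ q * x (σ i) * (h.κ q)⁻¹ := by
  have k := h.comp hσ
  have : ∀ i, ∃ e : Bool, g * x i * g⁻¹ = k.κ (cond e zm 1 * xm i) := fun i =>
    (h1 i).elim (fun e => ⟨false, by simpa [k.κx] using e⟩) fun e => ⟨true, by simpa [k.κx, k.κz] using e⟩
  choose ε hε using this
  obtain ⟨q, hq⟩ := d_sign ε (k.κinj (by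
    rw [map_mul, map_mul _ _ (_ * _), map_mul _ _ (_ * _), ← hε, ← hε, ← hε, ← hε, ← hε, ← h.xp]; group))
  have e : k.κ = h.κ.comp (cl0_1.comp hσ).κ := hom_ext fun i => by simp [Cl0.κx]
  exact ⟨(cl0_1.comp hσ).κ q, fun i => by rw [hε, hq, map_mul, map_mul, map_inv, k.κx, e]; rfl⟩

end Cl0

theorem cl0_m (σ : alternatingGroup (Fin 5)) : Cl0 (fun i => xm (σ.1 i)) zm := cl0_1.comp σ.2

theorem κ_mul (σ τ : alternatingGroup (Fin 5)) : (cl0_m (σ * τ)).κ = (cl0_m σ).κ.comp (cl0_m τ).κ :=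
  hom_ext fun i => by simp [Cl0.κx]

theorem κ_one : (cl0_m 1).κ = MonoidHom.id _ := hom_ext fun i => by simp [Cl0.κx]

def act : alternatingGroup (Fin 5) →* MulAut Qm := MonoidHom.mk' (fun σ =>
  { toFun := (cl0_m σ).κ
    invFun := (cl0_m σ⁻¹).κ
    left_inv := fun q => by rw [← MonoidHom.comp_apply, ← κ_mul, inv_mul_cancel, κ_one]; rfl
    right_inv := fun q => by rw [← MonoidHom.comp_apply, ← κ_mul, mul_inv_cancel, κ_one]; rfl
    map_mul' := map_mul _ }) fun σ τ => MulEquiv.ext fun q => DFunLike.congr_fun (κ_mul σ τ) q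

/-- the group `2^{1+4}_- : A₅` -/
abbrev H0 := Qm ⋊[act] alternatingGroup (Fin 5)

structure Cl (x : Fin 5 → X) (z : X) : Prop extends Cl0 x z where
  ex : ∀ g, ∃ σ, ev σ ∧ Ac x z g σ
  sur : ∀ σ, ev σ → ∃ g, Ac x z g σ
  cen : ∀ g, (∀ i, g * x i * g⁻¹ = x i) → g = 1 ∨ g = z
  inv : ∃ t, t * t = 1 ∧ Ac x z t al

theorem Cl.equiv [Finite X] {x : Fin 5 → X} {z : X} (h : Cl x z) :
    ∃ e : H0 ≃* X, e (SemidirectProduct.inl zm) = z := by
  have k := h.toCl0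
  choose f f1 f2 using h.ex
  let ψ : X →* S5 := MonoidHom.mk' f fun g g' => k.ac_uniq (f2 _) (k.ac_mul (f2 g) (f2 g'))
  have f3 : ∀ g σ, Ac x z g σ → ψ g = σ := fun g σ => k.ac_uniq (f2 g)
  let Y : Subgroup X :=
    { carrier := {g | ∀ i, g * x i * g⁻¹ = x (ψ g i)}
      mul_mem' := fun {a b} ha hb i => by rw [map_mul, Perm.mul_apply, ← ha, ← hb]; group
      one_mem' := fun i => by simp
      inv_mem' := fun {a} ha i => by
        obtain ⟨i, rfl⟩ := (ψ a).surjective i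
        rw [map_inv, Perm.inv_def, symm_apply_apply, ← ha]; group }
  have dec : ∀ g, ∃ q, (k.κ q)⁻¹ * g ∈ Y ∧ ψ ((k.κ q)⁻¹ * g) = ψ g := fun g => by
    obtain ⟨q, hq⟩ := k.signs (f2 g) (f1 g)
    have e : ψ ((k.κ q)⁻¹ * g) = ψ g := by rw [map_mul, map_inv, f3 _ _ (k.ac_κ q)]; simp
    refine ⟨q, fun i => ?_, e⟩
    rw [e, show (k.κ q)⁻¹ * g * x i * ((k.κ q)⁻¹ * g)⁻¹ = (k.κ q)⁻¹ * (g * x i * g⁻¹) * k.κ q by group, hq]
    simp [ψ, mul_assoc]
  have sY : ∀ σ, ev σ → ∃ g : Y, ψ g = σ := fun σ hσ => by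
    obtain ⟨g, hg⟩ := h.sur σ hσ
    obtain ⟨q, h1, h2⟩ := dec g
    exact ⟨⟨_, h1⟩, h2.trans (f3 _ _ hg)⟩
  have ψz : ψ z = 1 := k.κz ▸ f3 _ _ (k.ac_κ zm)
  have zY : z ∈ Y := fun i => by rw [ψz, ← k.zc]; simp
  have kY : ∀ g g' : Y, ψ g = ψ g' → g.1 = g' ∨ g.1 = z * g' := fun g g' e =>
    (h.cen (g * g'⁻¹ : Y) fun i => by
      rw [(g * g'⁻¹).2 i, coe_mul, map_mul, e, coe_inv, map_inv, mul_inv_cancel]; rfl).imp
      mul_inv_eq_one.1 mul_inv_eq_iff_eq_mul.1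
  have zz : ∀ g, z * g * (z * g) = g * g := fun g => by
    rw [(show Commute _ _ from k.zc g).mul_mul_mul_comm, k.z2, one_mul]
  obtain ⟨a, a1, a2⟩ : ∃ a : Y, ψ a = al ∧ a.1 * a = 1 := by
    obtain ⟨t, t2, ht⟩ := h.inv
    obtain ⟨q, h1, h2⟩ := dec t
    obtain ⟨a, ha⟩ : ∃ a, a = (k.κ q)⁻¹ * t := ⟨_, rfl⟩
    rw [← ha, f3 _ _ ht] at h2
    rw [← ha] at h1
    have e : (MulAut.conj a).toMonoidHom.comp k.κ = k.κ.comp (cl0_1.comp (by decide : ev al)).κ :=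
      hom_ext fun i => by simpa [Cl0.κx, h2] using h1 i
    have e1 : k.κ (q * (cl0_1.comp (by decide : ev al)).κ q) * (a * a) = 1 := by
      rw [map_mul, ← MonoidHom.comp_apply, ← e, ← t2, ← mul_inv_cancel_left (k.κ q) t, ← ha]
      simp [mul_assoc]
    refine ⟨⟨a, h1⟩, h2, (kY (⟨a, h1⟩ * ⟨a, h1⟩) 1 (by
      rw [coe_mul, map_mul, h2, OneMemClass.coe_one, map_one]; decide)).resolve_right fun e2 => ?_⟩
    rw [show a * a = k.κ zm by simpa [k.κz] using e2, ← map_mul, map_eq_one_iff _ k.κinj] at e1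
    exact (by decide +kernel : ∀ q, q * (cl0_1.comp (by decide : ev al)).κ q * zm ≠ 1) q e1
  let U : Subgroup Y := V4s.comap (ψ.comp Y.subtype)
  have U2 : ∀ u : U, u * u = 1 := fun u => Subtype.ext (Subtype.ext (by
    change u.1.1 * u.1.1 = 1
    by_cases e : ψ u = 1
    · rcases kY u 1 (by simpa using e) with e | e <;> simp [e, k.z2]
    obtain ⟨ρ, r1, -, r2⟩ := d_trans al _ (by decide) u.2 (by decide) e
    obtain ⟨r, rfl⟩ := sY ρ r1
    have e1 : (r * a * r.1⁻¹ : X) * (r * a * r.1⁻¹) = 1 := by rw [conj_mul, a2]; simp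
    rcases kY u (r * a * r⁻¹) (by simpa [a1] using r2.symm) with e | e <;> rw [e]
    exacts [e1, (zz _).trans e1]))
  have zU : (⟨z, zY⟩ : Y) ∈ U := by change ψ z ∈ V4s; rw [ψz]; exact one_mem _
  have pU : IsPGroup 2 U := fun u => ⟨1, by simpa [sq] using U2 u⟩
  obtain ⟨M, hM, -, zM⟩ := pg_exists_coatom_not_mem (G := U) (p := 2) (N := ⊥) (x := ⟨_, zU⟩) (by
    rw [le_bot_iff, commutator_eq_bot_iff_center_eq_top, eq_top_iff]
    exact fun u _ => mem_center_iff.2 fun v => by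
      rw [← inv_eq_of_mul_eq_one_right (U2 (v * u)), mul_inv_rev, inv_eq_of_mul_eq_one_right (U2 u),
        inv_eq_of_mul_eq_one_right (U2 v)]) (fun u => by rw [sq, U2]; exact one_mem _)
    fun e => k.z1 (congrArg (·.1.1) (mem_bot.1 e))
  have mz : ∀ g ∈ zpowers (⟨z, zY⟩ : Y), g = 1 ∨ g = ⟨z, zY⟩ := fun g =>
    pg_mem_zpowers_order_two (Subtype.ext (by simpa [sq] using k.z2))
  haveI : (zpowers (⟨z, zY⟩ : Y)).Normal := ⟨fun g hg u => by
    rcases mz g hg with rfl | rfl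
    · simp
    · convert mem_zpowers _ using 1
      exact Subtype.ext (by simp [k.zc])⟩
  obtain ⟨H, H1, H2⟩ := Hay.gaschutz (zpowers (⟨z, zY⟩ : Y)) U (fun a ha b hb => by
    rcases mz a ha with rfl | rfl <;> rcases mz b hb with rfl | rfl <;> simp) (zpowers_le.2 zU) (by
      have e : (ψ.comp Y.subtype).range = alternatingGroup (Fin 5) := le_antisymm (by
        rintro _ ⟨g, rfl⟩; exact f1 g) fun σ hσ => sY σ hσ
      have := relIndex_mul_card (H := V4s) (K := alternatingGroup (Fin 5)) fun σ hσ => hσ.1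
      rw [card_V4s, show Nat.card (alternatingGroup (Fin 5)) = 60 by
        rw [nat_card_alternatingGroup]; simp [Nat.factorial]] at this
      rw [index_comap, e, show V4s.relIndex (alternatingGroup (Fin 5)) = 15 by omega, Nat.card_zpowers,
        h9_orderOf_eq_two_iff.2 ⟨fun e => k.z1 (congrArg (·.1) e), Subtype.ext k.z2⟩]
      decide) (M.map U.subtype) (by
      rintro _ ⟨u, hu, rfl⟩ e
      exact (mz _ e).resolve_right fun e => zM ((Subtype.ext e : u = ⟨_, zU⟩) ▸ hu)) fun u hu => by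
      by_cases e : (⟨u, hu⟩ : U) ∈ M
      · exact ⟨1, one_mem _, u, ⟨_, e, rfl⟩, (one_mul _).symm⟩
      · exact ⟨_, mem_zpowers _, _, ⟨_, (mul_mem_iff_of_index_two (pg_index_of_isCoatom pU hM)).2
          (iff_of_false zM e), rfl⟩, Subtype.ext (by simp [← mul_assoc, k.z2])⟩
  let χ : H →* alternatingGroup (Fin 5) := (ψ.comp (Y.subtype.comp H.subtype)).codRestrict _ fun g => f1 _
  have hχ : Function.Bijective χ := ⟨(injective_iff_map_eq_one _).2 fun g e => Subtype.ext (H1 _ g.2 (by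
      rcases kY g 1 ((congrArg Subtype.val e).trans (map_one ψ).symm) with e | e
      · rw [show g.1 = 1 from Subtype.ext e]; exact one_mem _
      · rw [show g.1 = ⟨z, zY⟩ from Subtype.ext (by simpa using e)]; exact mem_zpowers _)), fun σ => by
    obtain ⟨g, hg⟩ := sY σ σ.2
    obtain ⟨c, hc, a, ha, rfl⟩ := H2 g
    refine ⟨⟨a, ha⟩, Subtype.ext (Eq.trans ?_ hg)⟩
    change ψ a = _
    rcases mz c hc with rfl | rfl <;> simp [ψz]⟩
  let φ : alternatingGroup (Fin 5) →* X :=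
    (Y.subtype.comp H.subtype).comp (MulEquiv.ofBijective χ hχ).symm.toMonoidHom
  have φ1 : ∀ σ, ψ (φ σ) = σ := fun σ => congrArg Subtype.val ((MulEquiv.ofBijective χ hχ).apply_symm_apply σ)
  have φ2 : ∀ σ, φ σ ∈ Y := fun σ => ((MulEquiv.ofBijective χ hχ).symm σ).1.2
  let F : H0 →* X := SemidirectProduct.lift k.κ φ fun σ => hom_ext fun i => by
    have := φ2 σ i
    rw [φ1] at this
    simpa [act, Cl0.κx] using this.symm
  have hF : ∀ q σ, F ⟨q, σ⟩ = k.κ q * φ σ := fun _ _ => rfl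
  refine ⟨MulEquiv.ofBijective F ⟨(injective_iff_map_eq_one _).2 fun ⟨q, σ⟩ e => ?_, fun g => ?_⟩,
    (hF zm 1).trans (by simp [k.κz])⟩
  · rw [hF] at e
    obtain rfl : σ = 1 := Subtype.ext (by simpa [φ1, f3 _ _ (k.ac_κ q)] using congrArg ψ e)
    rw [map_one, mul_one, map_eq_one_iff _ k.κinj] at e
    rw [e]; rfl
  · obtain ⟨q, h1, h2⟩ := dec g
    rcases kY ⟨_, h1⟩ ⟨_, φ2 ⟨_, f1 g⟩⟩ (h2.trans (φ1 ⟨_, f1 g⟩).symm) with e | e
    · exact ⟨⟨q, _⟩, (hF _ _).trans (eq_inv_mul_iff_mul_eq.1 e.symm)⟩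
    · exact ⟨⟨q * zm, _⟩, by rw [hF, map_mul, k.κz, mul_assoc]; exact eq_inv_mul_iff_mul_eq.1 e.symm⟩

end Cfsg.Lib.JJ
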