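import Cfsg.Prelude.Def_Spor_J2

/-!
# The icosian ring in coordinates
-/

set_option autoImplicit false

namespace Cfsg.Lib.JJ
open Quaternion Cfsg.Spor

theorem sqrt5 : Real.sqrt 5 = 2 * tau - 1 := by unfold tau; ring
theorem sig_eq : sig = 1 - tau := by unfold sig tau; ring
theorem tau_sq : tau ^ 2 = tau + 1 := by
  have := Real.sq_sqrt (show (0 : ℝ) ≤ 5 by norm_num)
  unfold tau; linarith [this, show ((1 + Real.sqrt 5) / 2) ^ 2 = (1 + 2 * Real.sqrt 5 + Real.sqrt 5 ^ 2) / 4 by ring]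
theorem one_lt_tau : 1 < tau := by
  have : 1 < Real.sqrt 5 := Real.lt_sqrt_of_sq_lt (by norm_num)
  unfold tau; linarith

theorem irr {a b : ℤ} (h : (a : ℝ) + b * tau = 0) : a = 0 ∧ b = 0 := by
  have hb : b = 0 := by
    by_contra hb
    refine (Nat.Prime.irrational_sqrt (p := 5) (by norm_num)).ne_rational (-(2 * a + b)) b ?_
    have : (b : ℝ) ≠ 0 := by exact_mod_cast hb
    rw [eq_div_iff this]
    push_cast
    rw [sqrt5]; linarith
  subst hb
  simpa using h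

/-- coordinates with respect to the basis `1, i, ω, q` over `ℤ[τ]` -/
noncomputable def emb (a a' b b' c c' d d' : ℤ) : ℍ[ℝ] :=
  ⟨(2 * a + c + d + (2 * a' + c' + d') * tau) / 2, (2 * b + c + d - d' + (2 * b' + c' - d) * tau) / 2,
    (c + c' * tau) / 2, (c + d' + (c' + d + d') * tau) / 2⟩

noncomputable def qq : ℍ[ℝ] := ⟨1 / 2, sig / 2, 0, tau / 2⟩
noncomputable def om : ℍ[ℝ] := ⟨1 / 2, 1 / 2, 1 / 2, 1 / 2⟩
def qJ : ℍ[ℝ] := ⟨0, 0, 1, 0⟩
def qK : ℍ[ℝ] := ⟨0, 0, 0, 1⟩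
@[simp] theorem qq_re : (qq).re = 1 / 2 := rfl
@[simp] theorem qq_imI : (qq).imI = sig / 2 := rfl
@[simp] theorem qq_imJ : (qq).imJ = 0 := rfl
@[simp] theorem qq_imK : (qq).imK = tau / 2 := rfl
@[simp] theorem om_re : (om).re = 1 / 2 := rfl
@[simp] theorem om_imI : (om).imI = 1 / 2 := rfl
@[simp] theorem om_imJ : (om).imJ = 1 / 2 := rfl
@[simp] theorem om_imK : (om).imK = 1 / 2 := rfl
@[simp] theorem qI_re : (qI).re = 0 := rfl
@[simp] theorem qI_imI : (qI).imI = 1 := rfl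
@[simp] theorem qI_imJ : (qI).imJ = 0 := rfl
@[simp] theorem qI_imK : (qI).imK = 0 := rfl
@[simp] theorem qJ_re : (qJ).re = 0 := rfl
@[simp] theorem qJ_imI : (qJ).imI = 0 := rfl
@[simp] theorem qJ_imJ : (qJ).imJ = 1 := rfl
@[simp] theorem qJ_imK : (qJ).imK = 0 := rfl
@[simp] theorem qK_re : (qK).re = 0 := rfl
@[simp] theorem qK_imI : (qK).imI = 0 := rfl
@[simp] theorem qK_imJ : (qK).imJ = 0 := rfl
@[simp] theorem qK_imK : (qK).imK = 1 := rfl
@[simp] theorem icoH_re : (icoH).re = -(Real.sqrt 5) / 2 := rfl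
@[simp] theorem icoH_imI : (icoH).imI = 1 / 2 := rfl
@[simp] theorem icoH_imJ : (icoH).imJ = 1 / 2 := rfl
@[simp] theorem icoH_imK : (icoH).imK = 1 / 2 := rfl
@[simp] theorem emb_re (a a' b b' c c' d d' : ℤ) : (emb a a' b b' c c' d d').re = (2 * a + c + d + (2 * a' + c' + d') * tau) / 2 := rfl
@[simp] theorem emb_imI (a a' b b' c c' d d' : ℤ) : (emb a a' b b' c c' d d').imI = (2 * b + c + d - d' + (2 * b' + c' - d) * tau) / 2 := rfl
@[simp] theorem emb_imJ (a a' b b' c c' d d' : ℤ) : (emb a a' b b' c c' d d').imJ = (c + c' * tau) / 2 := rfl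
@[simp] theorem emb_imK (a a' b b' c c' d d' : ℤ) : (emb a a' b b' c c' d d').imK = (c + d' + (c' + d + d') * tau) / 2 := rfl
@[simp] theorem two_re : (2 : ℍ[ℝ]).re = 2 := rfl
@[simp] theorem two_imI : (2 : ℍ[ℝ]).imI = 0 := rfl
@[simp] theorem two_imJ : (2 : ℍ[ℝ]).imJ = 0 := rfl
@[simp] theorem two_imK : (2 : ℍ[ℝ]).imK = 0 := rfl

theorem emb_mem (a a' b b' c c' d d' : ℤ) : emb a a' b b' c c' d d' ∈ icosians := by
  have hi : qI ∈ icosians := Subring.subset_closure (by simp)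
  have hq : qq ∈ icosians := Subring.subset_closure (.inr rfl)
  have ht : (tau : ℍ[ℝ]) ∈ icosians := by
    convert add_mem (add_mem (sub_mem (one_mem _) hi) (mul_mem hi hq)) (mul_mem hq hi) using 1
    ext <;> simp [sig_eq] <;> ring
  have hw : om ∈ icosians := by
    convert mul_mem (sub_mem ht (one_mem _)) (add_mem (add_mem (mul_mem hq hi) hq)
      (mul_mem (sub_mem ht (one_mem _)) hi)) using 1
    have := tau_sq
    ext <;> simp [sig_eq] <;> grind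
  have e : ∀ m n : ℤ, (m + n * tau : ℍ[ℝ]) ∈ icosians := fun m n =>
    add_mem (intCast_mem _ m) (mul_mem (intCast_mem _ n) ht)
  convert add_mem (add_mem (e a a') (mul_mem (e b b') hi)) (add_mem (mul_mem (e c c') hw) (mul_mem (e d d') hq))
    using 1
  have := tau_sq
  ext <;> simp [sig_eq] <;> grind

theorem exists_emb {x : ℍ[ℝ]} (hx : x ∈ icosians) : ∃ a a' b b' c c' d d', x = emb a a' b b' c c' d d' := by
  let L : AddSubgroup ℍ[ℝ] :=
    { carrier := {x | ∃ a a' b b' c c' d d', x = emb a a' b b' c c' d d'}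
      add_mem' := by
        rintro _ _ ⟨a, a', b, b', c, c', d, d', rfl⟩ ⟨A, A', B, B', C, C', D, D', rfl⟩
        exact ⟨a + A, a' + A', b + B, b' + B', c + C, c' + C', d + D, d' + D', by ext <;> simp <;> ring⟩
      zero_mem' := ⟨0, 0, 0, 0, 0, 0, 0, 0, by ext <;> simp⟩
      neg_mem' := by
        rintro _ ⟨a, a', b, b', c, c', d, d', rfl⟩
        exact ⟨-a, -a', -b, -b', -c, -c', -d, -d', by ext <;> simp <;> ring⟩ }
  have : ∀ y ∈ L, x * y ∈ L := by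
    induction hx using Subring.closure_induction with
    | mem x hx =>
      rintro _ ⟨a, a', b, b', c, c', d, d', rfl⟩
      have := tau_sq
      rcases hx with rfl | (rfl : _ = qq)
      · exact ⟨-b + c - c' - d + d', -b' - c + d, a + 3 * c - c' + d', a' - c + 2 * c' + d + d', -c - d',
          -c' - d - d', -2 * c + 2 * c' + d, 2 * c + d', by ext <;> simp <;> grind⟩
      · exact ⟨c - c' - d, -c - d', b - b' + 2 * c - 2 * c', -b - 2 * c, b' + c', b + b' + c + c',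
          a - b - 2 * c + c' + d, a' - b' + c - c' + d', by ext <;> simp [sig_eq] <;> grind⟩
    | zero => simp
    | one => simp
    | add u v _ _ hu hv => exact fun y hy => add_mul u v y ▸ add_mem (hu y hy) (hv y hy)
    | neg u _ hu => exact fun y hy => neg_mul u y ▸ neg_mem (hu y hy)
    | mul u v _ _ hu hv => exact fun y hy => mul_assoc u v y ▸ hu _ (hv y hy)
  have := this 1 ⟨1, 0, 0, 0, 0, 0, 0, 0, by ext <;> simp⟩
  rwa [mul_one] at this

theorem star_mem' {x : ℍ[ℝ]} (hx : x ∈ icosians) : star x ∈ icosians := by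
  obtain ⟨a, a', b, b', c, c', d, d', rfl⟩ := exists_emb hx
  convert emb_mem (a + c + d) (a' + c' + d') (-b) (-b') (-c) (-c') (-d) (-d') using 1
  ext <;> simp <;> ring

/-- half-integral coordinates -/
noncomputable def hq (m n : Fin 4 → ℤ) : ℍ[ℝ] :=
  ⟨(m 0 + n 0 * tau) / 2, (m 1 + n 1 * tau) / 2, (m 2 + n 2 * tau) / 2, (m 3 + n 3 * tau) / 2⟩

@[simp] theorem hq_re (m n : Fin 4 → ℤ) : (hq m n).re = (m 0 + n 0 * tau) / 2 := rfl
@[simp] theorem hq_imI (m n : Fin 4 → ℤ) : (hq m n).imI = (m 1 + n 1 * tau) / 2 := rfl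
@[simp] theorem hq_imJ (m n : Fin 4 → ℤ) : (hq m n).imJ = (m 2 + n 2 * tau) / 2 := rfl
@[simp] theorem hq_imK (m n : Fin 4 → ℤ) : (hq m n).imK = (m 3 + n 3 * tau) / 2 := rfl

theorem exists_hq {x : ℍ[ℝ]} (hx : x ∈ icosians) : ∃ m n, x = hq m n := by
  obtain ⟨a, a', b, b', c, c', d, d', rfl⟩ := exists_emb hx
  exact ⟨![2 * a + c + d, 2 * b + c + d - d', c, c + d'], ![2 * a' + c' + d', 2 * b' + c' - d, c', c' + d + d'],
    by ext <;> simp⟩

theorem normSq_hq (m n : Fin 4 → ℤ) : 4 * normSq (hq m n) = (∑ i, (m i ^ 2 + n i ^ 2) : ℤ) +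
    (∑ i, (2 * m i * n i + n i ^ 2) : ℤ) * tau := by
  have := tau_sq
  simp [normSq_def', Fin.sum_univ_four]
  grind

theorem real_mem {r : ℝ} (h : (r : ℍ[ℝ]) ∈ icosians) : ∃ m n : ℤ, r = m + n * tau := by
  obtain ⟨a, a', b, b', c, c', d, d', e⟩ := exists_emb h
  have e0 := congrArg (·.re) e
  have e2 := congrArg (·.imJ) e
  have e3 := congrArg (·.imK) e
  simp only [emb_re, emb_imJ, emb_imK, re_coe, imJ_coe, imK_coe] at e0 e2 e3
  obtain ⟨rfl, rfl⟩ := irr (a := c) (b := c') (by linarith)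
  obtain ⟨rfl, h⟩ := irr (a := d') (b := d + d') (by push_cast at *; linarith)
  obtain rfl : d = 0 := by simpa using h
  exact ⟨a, a', by push_cast at e0; linarith⟩

theorem normSq_mem {x : ℍ[ℝ]} (hx : x ∈ icosians) :
    ∃ m n : ℤ, normSq x = m + n * tau ∧ 0 ≤ m ∧ (m = 0 → x = 0) := by
  obtain ⟨m, n, e⟩ := real_mem (r := normSq x) (self_mul_star x ▸ mul_mem hx (star_mem' hx))
  obtain ⟨u, v, rfl⟩ := exists_hq hx
  have e1 := normSq_hq u v
  obtain ⟨h1, -⟩ := irr (a := 4 * m - ∑ i, (u i ^ 2 + v i ^ 2)) (b := 4 * n - ∑ i, (2 * u i * v i + v i ^ 2))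
    (by rw [e] at e1; push_cast at *; linarith)
  have h2 : ∀ i ∈ Finset.univ, 0 ≤ u i ^ 2 + v i ^ 2 := fun i _ => by positivity
  refine ⟨m, n, e, by linarith [Finset.sum_nonneg h2], fun h => ?_⟩
  have h3 : ∀ i, u i = 0 ∧ v i = 0 := fun i => by
    have := (Finset.sum_eq_zero_iff_of_nonneg h2).1 (by linarith) i (Finset.mem_univ i)
    constructor <;> nlinarith [sq_nonneg (u i), sq_nonneg (v i)]
  ext <;> simp [h3]

/-- the units `1, i, j, k` -/
def cq : Fin 4 → ℍ[ℝ] := ![1, qI, qJ, qK]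

theorem unit_int {x : ℍ[ℝ]} (hx : (∃ y ∈ icosians, x = 1 + 2 * y) ∨ ∀ i, ∃ m n : ℤ,
    (x * star (cq i)).re = m + n * tau) (h : normSq x = 1) : ∃ i, x = cq i ∨ x = -cq i := by
  obtain ⟨m, n, e⟩ : ∃ m n, x = 2 * hq m n := by
    obtain ⟨y, hy, e⟩ | e := hx
    · obtain ⟨m, n, rfl⟩ := exists_hq hy
      exact ⟨![m 0 + 1, m 1, m 2, m 3], n, e.trans (by ext <;> simp; ring)⟩
    · choose m n e using e
      refine ⟨m, n, ?_⟩
      ext <;> simp [← e, cq] <;> ring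
  have e1 := normSq_hq m n
  rw [e, map_mul, show normSq (2 : ℍ[ℝ]) = 4 by rw [show (2 : ℍ[ℝ]) = (2 : ℝ) from rfl, normSq_coe]; norm_num] at h
  obtain ⟨h1, h2⟩ := irr (a := ∑ i, (m i ^ 2 + n i ^ 2) - 1) (b := ∑ i, (2 * m i * n i + n i ^ 2))
    (by rw [h] at e1; push_cast at *; linarith)
  simp only [Fin.sum_univ_four] at h1 h2
  have key : ∀ a b c d e f g h : ℤ, a ^ 2 + b ^ 2 + (c ^ 2 + d ^ 2) + (e ^ 2 + f ^ 2) + (g ^ 2 + h ^ 2) - 1 = 0 →
      -1 ≤ a ∧ a ≤ 1 := fun a b c d e f g h k => by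
    constructor <;> nlinarith [sq_nonneg b, sq_nonneg c, sq_nonneg d, sq_nonneg e, sq_nonneg f, sq_nonneg g,
      sq_nonneg h]
  have key' : ∀ a b c d e f g h : ℤ, a ^ 2 + b ^ 2 + (c ^ 2 + d ^ 2) + (e ^ 2 + f ^ 2) + (g ^ 2 + h ^ 2) - 1 = 0 →
      2 * a * b + b ^ 2 + (2 * c * d + d ^ 2) + (2 * e * f + f ^ 2) + (2 * g * h + h ^ 2) = 0 → b = 0 :=
    fun a b c d e f g h k k' => by
      by_contra hb
      have : 0 < b ^ 2 := by positivity
      have h1 : a = 0 ∧ c = 0 ∧ e = 0 ∧ g = 0 := by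
        refine ⟨?_, ?_, ?_, ?_⟩ <;> nlinarith [sq_nonneg a, sq_nonneg c, sq_nonneg d, sq_nonneg e,
          sq_nonneg f, sq_nonneg g, sq_nonneg h]
      obtain ⟨rfl, rfl, rfl, rfl⟩ := h1
      nlinarith [sq_nonneg d, sq_nonneg f, sq_nonneg h]
  have n0 := key' _ _ _ _ _ _ _ _ h1 h2
  have n1 := key' (m 1) (n 1) (m 0) (n 0) (m 2) (n 2) (m 3) (n 3) (by linarith) (by linarith)
  have n2 := key' (m 2) (n 2) (m 0) (n 0) (m 1) (n 1) (m 3) (n 3) (by linarith) (by linarith)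
  have n3 := key' (m 3) (n 3) (m 0) (n 0) (m 1) (n 1) (m 2) (n 2) (by linarith) (by linarith)
  obtain ⟨a0, b0⟩ := key _ _ _ _ _ _ _ _ h1
  obtain ⟨a1, b1⟩ := key (m 1) (n 1) (m 0) (n 0) (m 2) (n 2) (m 3) (n 3) (by linarith)
  obtain ⟨a2, b2⟩ := key (m 2) (n 2) (m 0) (n 0) (m 1) (n 1) (m 3) (n 3) (by linarith)
  obtain ⟨a3, b3⟩ := key (m 3) (n 3) (m 0) (n 0) (m 1) (n 1) (m 2) (n 2) (by linarith)
  simp [e, n0, n1, n2, n3, Quaternion.ext_iff, Fin.exists_fin_succ, cq] at h1 ⊢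
  generalize m 0 = m0, m 1 = m1, m 2 = m2, m 3 = m3 at *
  interval_cases m0 <;> interval_cases m1 <;> interval_cases m2 <;> interval_cases m3 <;> first | omega | norm_num

theorem sq_ne_two {x : ℍ[ℝ]} (hx : x ∈ icosians) : (2 * x.re) ^ 2 ≠ 2 ∧ (2 * x.imJ) ^ 2 ≠ 2 := by
  obtain ⟨m, n, rfl⟩ := exists_hq hx
  have : ∀ a b : ℤ, (2 * ((a + b * tau) / 2)) ^ 2 ≠ 2 := fun a b e => by
    have := tau_sq
    obtain ⟨h1, h2⟩ := irr (a := a ^ 2 + b ^ 2 - 2) (b := 2 * a * b + b ^ 2) (by push_cast; grind)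
    have : -1 ≤ a ∧ a ≤ 1 ∧ -1 ≤ b ∧ b ≤ 1 := by refine ⟨?_, ?_, ?_, ?_⟩ <;> nlinarith [sq_nonneg a, sq_nonneg b]
    obtain ⟨_, _, _, _⟩ := this
    interval_cases a <;> interval_cases b <;> simp at h1 h2
  exact ⟨this _ _, this _ _⟩

theorem finite_min : {v : Fin 3 → ℍ[ℝ] | (∀ t, v t ∈ icosians) ∧ ∑ t, normSq (v t) = 4}.Finite := by
  refine ((Set.Finite.pi' fun _ : Fin 3 => (Set.Finite.pi' fun _ : Fin 4 => Set.finite_Icc (-4 : ℤ) 4).prod
    (Set.Finite.pi' fun _ : Fin 4 => Set.finite_Icc (-4 : ℤ) 4)).image fun f t => hq (f t).1 (f t).2).subset ?_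
  rintro v ⟨h1, h2⟩
  choose m n e using fun t => exists_hq (h1 t)
  obtain ⟨h3, -⟩ := irr (a := ∑ t, ∑ i, (m t i ^ 2 + n t i ^ 2) - 16) (b := ∑ t, ∑ i, (2 * m t i * n t i + n t i ^ 2))
    (by
      have := congrArg (4 * ·) h2
      simp only [Finset.mul_sum, e, normSq_hq, Finset.sum_add_distrib, ← Finset.sum_mul] at this
      push_cast at this ⊢
      simp only [Finset.sum_add_distrib] at this ⊢
      linarith)
  have h4 : ∀ t i, m t i ^ 2 + n t i ^ 2 ≤ 16 := fun t i => by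
    have := (Finset.single_le_sum (f := fun i => m t i ^ 2 + n t i ^ 2) (fun _ _ => by positivity)
      (Finset.mem_univ i)).trans (Finset.single_le_sum (f := fun t => ∑ i, (m t i ^ 2 + n t i ^ 2))
        (fun _ _ => by positivity) (Finset.mem_univ t))
    linarith
  exact ⟨fun t => (m t, n t), fun t => ⟨fun i => ⟨by nlinarith [h4 t i, sq_nonneg (n t i)], by
    nlinarith [h4 t i, sq_nonneg (n t i)]⟩, fun i => ⟨by nlinarith [h4 t i, sq_nonneg (m t i)], by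
    nlinarith [h4 t i, sq_nonneg (m t i)]⟩⟩, funext fun t => (e t).symm⟩

end Cfsg.Lib.JJ
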