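import Cfsg.Agent.Lib.J2.Ico

/-!
# Reflections of the icosian Leech lattice
-/

set_option autoImplicit false

namespace Cfsg.Lib.JJ
open Quaternion Cfsg.Spor Equiv

@[simp] theorem four_re : (4 : ℍ[ℝ]).re = 4 := rfl
@[simp] theorem four_imI : (4 : ℍ[ℝ]).imI = 0 := rfl
@[simp] theorem four_imJ : (4 : ℍ[ℝ]).imJ = 0 := rfl
@[simp] theorem four_imK : (4 : ℍ[ℝ]).imK = 0 := rfl
@[simp] theorem two_ne : (2 : ℍ[ℝ]) ≠ 0 := fun e => by simpa using congrArg (·.re) e

theorem h_mem : icoH ∈ icosians := by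
  convert emb_mem 0 (-1) 0 0 1 0 0 0 using 1
  ext <;> simp [sqrt5]; ring

theorem hh : icoH * star icoH = 2 := by
  have := tau_sq
  ext <;> simp [sqrt5] <;> grind

theorem hh' : star icoH * icoH = 2 := by
  have := tau_sq
  ext <;> simp [sqrt5] <;> grind

theorem li_add {q x y : ℍ[ℝ]} : x ∈ leftIdeal q → y ∈ leftIdeal q → x + y ∈ leftIdeal q := by
  rintro ⟨a, ha, rfl⟩ ⟨b, hb, rfl⟩
  exact ⟨_, add_mem ha hb, (add_mul ..).symm⟩

theorem li_mul {q x a : ℍ[ℝ]} (ha : a ∈ icosians) : x ∈ leftIdeal q → a * x ∈ leftIdeal q := by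
  rintro ⟨b, hb, rfl⟩
  exact ⟨_, mul_mem ha hb, (mul_assoc ..).symm⟩

theorem li_two {a : ℍ[ℝ]} (ha : a ∈ icosians) : a * 2 ∈ leftIdeal icoH ∧ a * 2 ∈ leftIdeal (star icoH) :=
  ⟨⟨_, mul_mem ha (star_mem' h_mem), by rw [mul_assoc, hh']⟩, _, mul_mem ha h_mem, by rw [mul_assoc, hh]⟩

theorem lam_mem {x r : Fin 3 → ℍ[ℝ]} {a : ℍ[ℝ]} (hx : x ∈ icoLeech) (hr : r ∈ icoLeech) (ha : a ∈ icosians) :
    (fun t => x t - a * r t) ∈ icoLeech := by
  have hn := neg_mem ha
  refine ⟨fun t => sub_mem (hx.1 t) (mul_mem ha (hr.1 t)), ?_, ?_, ?_⟩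
  · convert li_add hx.2.1 (li_mul hn hr.2.1) using 1; noncomm_ring
  · convert li_add hx.2.2.1 (li_mul hn hr.2.2.1) using 1; noncomm_ring
  · convert li_add hx.2.2.2 (li_mul hn hr.2.2.2) using 1; noncomm_ring

theorem qip_eq (x r : Fin 3 → ℍ[ℝ]) : qip x r = x 0 * star (r 0) + x 1 * star (r 1) + x 2 * star (r 2) :=
  Fin.sum_univ_three _

theorem qip_mem {x r : Fin 3 → ℍ[ℝ]} (hx : x ∈ icoLeech) (hr : r ∈ icoLeech) : ∃ c ∈ icosians, qip x r = c * 2 := by
  obtain ⟨h1, ⟨a, ha, e1⟩, ⟨a', ha', e2⟩, c, hc, e3⟩ := hx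
  obtain ⟨h2, ⟨b, hb, f1⟩, ⟨b', hb', f2⟩, d, hd, f3⟩ := hr
  have s := fun {x} => @star_mem' x
  refine ⟨c * star d - (a - a') * star (b - b') - (x 1 * icoH * star d + (a - a') * icoH * star (r 1)) +
    a * star b + a' * star b', add_mem (add_mem (sub_mem (sub_mem (mul_mem hc (s hd)) (mul_mem (sub_mem ha ha')
    (s (sub_mem hb hb')))) (add_mem (mul_mem (mul_mem (h1 1) h_mem) (s hd)) (mul_mem (mul_mem (sub_mem ha ha') h_mem)
    (s (h2 1))))) (mul_mem ha (s hb))) (mul_mem ha' (s hb')), ?_⟩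
  have x0 : x 0 = x 1 + a * icoH := by rw [← e1]; abel
  have x2 : x 2 = x 1 - a' * icoH := by rw [← e2]; abel
  have r0 : star (r 0) = star (r 1) + star icoH * star b := by rw [← star_mul, ← f1, star_sub]; abel
  have r2 : star (r 2) = star (r 1) - star icoH * star b' := by rw [← star_mul, ← f2, star_sub]; abel
  have f4 : star (r 0) + star (r 1) + star (r 2) = icoH * star d := by
    rw [← star_add, ← star_add, f3, star_mul, star_star]
  rw [x0, x2] at e3
  rw [r0, r2] at f4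
  have g1 : c * 2 = (x 1 + a * icoH + x 1 + (x 1 - a' * icoH)) * icoH := by rw [e3, mul_assoc, hh']
  have g2 : ∀ u v : ℍ[ℝ], u * v * 2 = u * icoH * star icoH * v := fun u v => by
    rw [mul_assoc u icoH, hh]; noncomm_ring
  have g3 : c * star d * 2 = c * 2 * star d := by noncomm_ring
  rw [qip_eq, x0, x2, r0, r2, star_sub, add_mul _ _ 2, add_mul _ _ 2, sub_mul _ _ 2, sub_mul _ _ 2, g3, g1,
    g2 a, g2 a', g2 (a - a')]
  simp only [mul_assoc _ icoH (star d), ← f4]
  noncomm_ring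

theorem qip_refl (r x y : Fin 3 → ℍ[ℝ]) : qip (qrefl r x) y = qip x y - (1 / 2 : ℝ) • (qip x r * qip r y) := by
  rw [qip, qip.eq_1 x y, qip.eq_1 r y]
  simp only [qrefl, sub_mul, Finset.sum_sub_distrib, mul_assoc, smul_mul_assoc, Finset.mul_sum, Finset.smul_sum]

theorem star_qip (x y : Fin 3 → ℍ[ℝ]) : star (qip x y) = qip y x := by simp [qip]

theorem qip_refl' (r x y : Fin 3 → ℍ[ℝ]) : qip x (qrefl r y) = qip x y - (1 / 2 : ℝ) • (qip x r * qip r y) := by
  rw [← star_qip, qip_refl, star_sub, Quaternion.star_smul, star_mul, star_qip, star_qip, star_qip]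

theorem refl_mem {x r : Fin 3 → ℍ[ℝ]} (hx : x ∈ icoLeech) (hr : r ∈ icoLeech) : qrefl r x ∈ icoLeech := by
  obtain ⟨c, hc, e⟩ := qip_mem hx hr
  convert lam_mem hx hr hc using 1
  funext t
  rw [qrefl, e]
  congr 2
  ext <;> simp <;> ring

noncomputable def ee (t : Fin 3) : icoLeech := ⟨Pi.single t 2, by
  have h0 := li_two (zero_mem _)
  have h1 := li_two (one_mem _)
  have h2 := li_two (neg_mem (one_mem _))
  simp only [zero_mul, one_mul, neg_mul] at h0 h1 h2
  refine ⟨fun s => ?_, ?_⟩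
  · rw [Pi.single_apply]; split_ifs; exacts [ofNat_mem _ 2, zero_mem _]
  · fin_cases t <;> simp [h0, h1, h2]⟩

theorem qip_ee (x : Fin 3 → ℍ[ℝ]) (t : Fin 3) : qip x (ee t) = x t * 2 := by
  fin_cases t <;> simp [qip_eq, ee]

theorem ee_ee (t : Fin 3) : qip (ee t) (ee t) = 4 := by rw [qip_ee]; simp [ee]; norm_num

theorem ext_qip {u v : Fin 3 → ℍ[ℝ]} (h : ∀ y : icoLeech, qip u y = qip v y) : u = v :=
  funext fun t => by simpa [qip_ee] using h (ee t)

theorem iso (g : twoJ2) (x y : icoLeech) : qip (g.1 x) (g.1 y) = qip x y := by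
  obtain ⟨g, hg⟩ := g
  induction hg using Subgroup.closure_induction generalizing x y with
  | mem f hf =>
    obtain ⟨r, h, e⟩ := hf
    simp only [e, qip_refl, qip_refl', h]
    ext <;> simp <;> ring
  | one => rfl
  | mul f g _ _ hf hg => exact (hf _ _).trans (hg x y)
  | inv f _ hf => simpa using (hf (f⁻¹ x) (f⁻¹ y)).symm

theorem iso' (g : twoJ2) (x y : icoLeech) : qip (g.1 x) y = qip x (g⁻¹.1 y) := by
  rw [← iso g x]; simp

instance : Finite twoJ2 := by
  haveI := finite_min.to_subtype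
  refine Finite.of_injective (β := Fin 3 → {v : Fin 3 → ℍ[ℝ] | (∀ t, v t ∈ icosians) ∧ ∑ t, normSq (v t) = 4})
    (fun g t => ⟨g⁻¹.1 (ee t), (g⁻¹.1 (ee t)).2.1, by
      have := congrArg (·.re) ((iso g⁻¹ _ _).trans (ee_ee t))
      simpa [qip_eq, self_mul_star, Fin.sum_univ_three] using this⟩) fun g k e => ?_
  refine Subtype.ext (Equiv.ext fun x => Subtype.ext (funext fun t => mul_right_cancel₀ two_ne ?_))
  rw [← qip_ee, ← qip_ee, iso', iso']
  exact congrArg (fun v => qip x.1 v.1) (congrFun e t)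

noncomputable def rho (r : icoLeech) (h : qip r r = 4) : twoJ2 :=
  ⟨Function.Involutive.toPerm (fun x => ⟨qrefl r x, refl_mem x.2 r.2⟩) fun x => Subtype.ext (ext_qip fun y => by
    simp only [qip_refl, h]
    ext <;> simp <;> ring), Subgroup.subset_closure ⟨r, h, fun _ => rfl⟩⟩

theorem rho_ap (r : icoLeech) (h : qip r r = 4) (x : icoLeech) : ((rho r h).1 x).1 = qrefl r x := rfl

theorem ext_ap {g k : twoJ2} (h : ∀ x, (g.1 x).1 = (k.1 x).1) : g = k :=
  Subtype.ext (Equiv.ext fun x => Subtype.ext (h x))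

theorem rho_sq (r : icoLeech) (h : qip r r = 4) : rho r h * rho r h = 1 :=
  Subtype.ext (Equiv.ext fun x => (rho r h).1.left_inv x)

theorem conj_rho (g : twoJ2) (r : icoLeech) (h : qip r r = 4) :
    g * rho r h * g⁻¹ = rho (g.1 r) ((iso ..).trans h) := ext_ap fun x => ext_qip fun y => by
  change qip (g.1 ((rho r h).1 (g⁻¹.1 x))) y = _
  rw [iso', rho_ap, rho_ap, qip_refl, qip_refl, iso, iso' g⁻¹, iso' g, inv_inv]

theorem line_of {r s : icoLeech} {h : qip r r = 4} {h' : qip s s = 4} (e : rho r h = rho s h') :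
    ∃ u, normSq u = 1 ∧ ∀ t, r.1 t = u * s.1 t := by
  have e1 : ∀ t, r.1 t = ((1 / 4 : ℝ) • qip r s) * s.1 t := fun t => by
    have := congrFun ((rho_ap r h r).symm.trans (e ▸ rho_ap s h' r)) t
    simp only [qrefl, h, sub_right_inj, smul_mul_assoc] at this ⊢
    rw [show (1 / 4 : ℝ) = 1 / 2 * (1 / 2) by norm_num, mul_smul, ← this]
    ext <;> simp <;> ring
  refine ⟨_, ?_, e1⟩
  generalize (1 / 4 : ℝ) • qip r.1 s = u at e1
  have : qip r r = u * qip s s * star u := by simp only [qip_eq, e1, star_mul]; noncomm_ring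
  rw [h, h', show u * 4 * star u = 4 * (u * star u) by noncomm_ring, self_mul_star] at this
  simpa using congrArg (·.re) this

theorem two_coe : ((2 : ℝ) : ℍ[ℝ]) = 2 := rfl

theorem rho1 {r : icoLeech} (h : qip r r = 4) (t : Fin 3) (e : ∀ s, s ≠ t → r.1 s = 0) (x : icoLeech) :
    ((rho r h).1 x).1 = fun s => if s = t then -x.1 s else x.1 s := by
  have e1 : ∀ x, qip x r = x t * star (r.1 t) := fun x =>
    Finset.sum_eq_single t (fun s _ hs => by simp [e s hs]) (by simp)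
  have e2 : star (r.1 t) * r.1 t = 4 := by rw [← h, e1, self_mul_star, star_mul_self]
  funext s
  rw [rho_ap, qrefl, e1]
  split_ifs with hs
  · rw [hs, smul_mul_assoc, mul_assoc, e2]; ext <;> simp <;> ring
  · simp [e s hs]

theorem rho2 {r : icoLeech} (h : qip r r = 4) {c : ℍ[ℝ]} (hc : normSq c = 1) (s t : Fin 3) (st : s ≠ t)
    (e : ∀ u, u ≠ s → u ≠ t → r.1 u = 0) (e' : r.1 t = r.1 s * c) (x : icoLeech) :
    ((rho r h).1 x).1 = fun u => if u = s then -x.1 t * star c else if u = t then -x.1 s * c else x.1 u := by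
  have e1 : ∀ x, qip x r = (x s + x t * star c) * star (r.1 s) := fun x => by
    rw [qip, Finset.sum_eq_add s t st (fun u _ hu => by simp [e u hu.1 hu.2]) (by simp) (by simp), e', star_mul]
    noncomm_ring
  have c1 : c * star c = 1 := by rw [self_mul_star, hc]; rfl
  have c2 : star c * c = 1 := by rw [star_mul_self, hc]; rfl
  have e2 : star (r.1 s) * r.1 s = 2 := by
    rw [e1, e', mul_assoc _ c, c1, mul_one, add_mul, self_mul_star] at h
    have := congrArg (·.re) h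
    simp at this
    rw [star_mul_self, show normSq (r.1 s) = 2 by linarith, two_coe]
  have e3 : ∀ y : ℍ[ℝ], (1 / 2 : ℝ) • (y * 2) = y := fun y => by ext <;> simp <;> ring
  funext u
  rw [rho_ap, qrefl, e1, smul_mul_assoc, mul_assoc]
  split_ifs with hs ht
  · rw [hs, e2, e3]; noncomm_ring
  · rw [ht, e', ← mul_assoc (star _), e2, show (2 : ℍ[ℝ]) * c = c * 2 by noncomm_ring, ← mul_assoc, e3, add_mul,
      mul_assoc, c2]; noncomm_ring
  · simp [e u hs ht]

end Cfsg.Lib.JJ
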