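import Cfsg.Agent.Lib.J2.Refl
import Cfsg.Agent.Lib.J2.Cliff

/-!
# The centralizer of a reflection in `2·J₂`
-/

set_option autoImplicit false

namespace Cfsg.Lib.JJ
open Quaternion Cfsg.Spor Equiv Subgroup Cfsg.Lib.FT Cfsg.Lib.FT.O4

noncomputable def pp : ℍ[ℝ] := 1 + qI

theorem pp_li : pp ∈ leftIdeal icoH := ⟨_, emb_mem 0 0 (-1) 0 0 0 1 (-1), by
  have := tau_sq
  ext <;> simp [pp, sqrt5] <;> grind⟩

theorem cq_mem (i : Fin 4) : cq i ∈ icosians := by
  fin_cases i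
  · exact one_mem _
  · exact Subring.subset_closure (.inl rfl)
  · convert emb_mem (-2) 1 (-3) 1 2 0 2 (-2) using 1
    ext <;> simp [cq] <;> ring
  · convert emb_mem 1 (-1) 2 (-1) 0 0 (-2) 2 using 1
    ext <;> simp [cq]; ring

theorem pp_mem : pp ∈ icosians := add_mem (one_mem _) (cq_mem 1)

theorem cq_norm (i : Fin 4) : normSq (cq i) = 1 := by fin_cases i <;> simp [cq, normSq_def']

theorem pp_cq (i : Fin 4) : ∃ a ∈ icosians, pp * cq i = a * 2 - pp := by
  fin_cases i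
  · exact ⟨_, pp_mem, by ext <;> simp [pp, cq] <;> norm_num⟩
  · exact ⟨_, cq_mem 1, by ext <;> simp [pp, cq] <;> norm_num⟩
  · exact ⟨_, emb_mem 0 0 0 0 1 0 0 0, by ext <;> simp [pp, cq]⟩
  · exact ⟨_, emb_mem 2 (-1) 3 (-1) (-1) 0 (-2) 2, by ext <;> simp [pp, cq] <;> ring⟩

theorem h_cq (i : Fin 4) : ∃ a ∈ icosians, icoH * (1 + cq i) = a * 2 := by
  have := tau_sq
  fin_cases i
  · exact ⟨_, h_mem, by ext <;> simp [cq] <;> ring⟩
  · exact ⟨_, emb_mem (-1) 0 (-1) 0 1 0 1 (-1), by ext <;> simp [cq, sqrt5] <;> ring⟩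
  · exact ⟨_, emb_mem (-1) 0 (-1) 1 1 (-1) 1 0, by ext <;> simp [cq, sqrt5] <;> ring⟩
  · exact ⟨_, emb_mem 1 (-1) 2 (-1) 0 0 (-2) 1, by ext <;> simp [cq, sqrt5] <;> ring⟩

theorem li_neg {q x : ℍ[ℝ]} (h : x ∈ leftIdeal q) : -x ∈ leftIdeal q := by
  simpa using li_mul (neg_mem (one_mem _)) h

noncomputable def r12 (i : Fin 4) : icoLeech := ⟨![0, pp, pp * cq i], by
  obtain ⟨a, ha, e⟩ := pp_cq i
  refine ⟨fun t => ?_, by simpa using li_neg pp_li, ?_, by simpa [e] using (li_two ha).2⟩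
  · fin_cases t; exacts [zero_mem _, pp_mem, mul_mem pp_mem (cq_mem i)]
  · convert (li_two (sub_mem pp_mem ha)).1 using 1
    simp [e]; noncomm_ring⟩

noncomputable def r02 (i : Fin 4) : icoLeech := ⟨![pp, 0, pp * cq i], by
  obtain ⟨a, ha, e⟩ := pp_cq i
  refine ⟨fun t => ?_, by simpa using pp_li, ?_, by simpa [e] using (li_two ha).2⟩
  · fin_cases t; exacts [pp_mem, zero_mem _, mul_mem pp_mem (cq_mem i)]
  · convert li_add pp_li (li_two (neg_mem ha)).1 using 1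
    simp [e]; noncomm_ring⟩

theorem r12_n (i : Fin 4) : qip (r12 i) (r12 i) = 4 := by
  fin_cases i <;> ext <;> simp [qip_eq, r12, pp, cq] <;> norm_num

theorem r02_n (i : Fin 4) : qip (r02 i) (r02 i) = 4 := by
  fin_cases i <;> ext <;> simp [qip_eq, r02, pp, cq] <;> norm_num

theorem hb_li : star icoH - 1 ∈ leftIdeal icoH ∧ qI * star icoH - 1 ∈ leftIdeal icoH := by
  have := tau_sq
  exact ⟨⟨_, emb_mem 0 0 0 0 0 1 0 0, by ext <;> simp [sqrt5] <;> grind⟩,
    _, emb_mem (-2) 1 (-2) 2 1 (-1) 3 (-1), by ext <;> simp [sqrt5] <;> grind⟩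

theorem li_zero (q : ℍ[ℝ]) : 0 ∈ leftIdeal q := ⟨0, zero_mem _, by simp⟩

noncomputable def av : icoLeech := ⟨![star icoH, 1, 1], fun t => by
  fin_cases t; exacts [star_mem' h_mem, one_mem _, one_mem _], hb_li.1, by simpa using li_zero _,
    _, add_mem (one_mem _) h_mem, by simp [add_mul, hh, add_assoc, one_add_one_eq_two]⟩

noncomputable def av' : icoLeech := ⟨![qI * star icoH, 1, 1], fun t => by
  fin_cases t; exacts [mul_mem (cq_mem 1) (star_mem' h_mem), one_mem _, one_mem _], hb_li.2,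
    by simpa using li_zero _, _, add_mem (cq_mem 1) h_mem, by simp [add_mul, hh, add_assoc, one_add_one_eq_two, cq]⟩

noncomputable def bv0 : icoLeech := ⟨![1, star icoH, 1], fun t => by
  fin_cases t; exacts [one_mem _, star_mem' h_mem, one_mem _], by simpa using li_neg hb_li.1, hb_li.1,
    _, add_mem (one_mem _) h_mem, by simp [add_mul, hh, ← one_add_one_eq_two]; abel⟩

theorem av_n : qip av av = 4 ∧ qip av' av' = 4 := by
  have := tau_sq
  constructor <;> ext <;> simp [qip_eq, av, av', sqrt5] <;> grind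

noncomputable def RR (t : Fin 3) : twoJ2 := rho (ee t) (ee_ee t)
noncomputable def rc (i : Fin 4) : twoJ2 := rho (r12 i) (r12_n i)
noncomputable def XX : Fin 5 → twoJ2 := ![rc 0, rc 1, rc 2, rc 3, RR 1]
noncomputable def ZZ : twoJ2 := RR 1 * RR 2
noncomputable def NN : twoJ2 := RR 0 * ZZ
noncomputable def DD (i : Fin 4) : twoJ2 := rho (r02 0) (r02_n 0) * rho (r02 i) (r02_n i)
noncomputable def YY : twoJ2 := rho av av_n.1 * rho av' av_n.2

theorem RR_ap (t : Fin 3) (x : icoLeech) : ((RR t).1 x).1 = fun s => if s = t then -x.1 s else x.1 s :=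
  rho1 _ t (fun s hs => by simp [ee, hs]) x

theorem rho12 {r : icoLeech} (h : qip r r = 4) {c : ℍ[ℝ]} (hc : normSq c = 1) (e : r.1 0 = 0)
    (e' : r.1 2 = r.1 1 * c) (x : icoLeech) : ((rho r h).1 x).1 = ![x.1 0, -x.1 2 * star c, -x.1 1 * c] := by
  rw [rho2 h hc 1 2 (by decide) (fun u h1 h2 => by fin_cases u <;> simp_all) e']
  funext t; fin_cases t <;> simp

theorem rc_ap (i : Fin 4) (x : icoLeech) : ((rc i).1 x).1 = ![x.1 0, -x.1 2 * star (cq i), -x.1 1 * cq i] :=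
  rho12 _ (cq_norm i) rfl rfl x

theorem DD_ap (i : Fin 4) (x : icoLeech) : ((DD i).1 x).1 = ![x.1 0 * cq i, x.1 1, x.1 2 * star (cq i)] := by
  have := fun i => rho2 (r02_n i) (cq_norm i) 0 2 (by decide) (fun u h1 h2 => by fin_cases u <;> simp_all [r02]) rfl
  rw [DD, Subgroup.coe_mul, Perm.mul_apply, this, this]
  funext t; fin_cases t <;> simp [cq]

theorem ZZ_ap (x : icoLeech) : (ZZ.1 x).1 = ![x.1 0, -x.1 1, -x.1 2] := by
  funext t; fin_cases t <;> simp [ZZ, RR_ap]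

theorem NN_ap (x : icoLeech) : (NN.1 x).1 = -x.1 := by
  funext t; fin_cases t <;> simp [NN, ZZ_ap, RR_ap]

theorem NN_comm (g : twoJ2) : g * NN = NN * g := ext_ap fun x => ext_qip fun y => by
  have : ∀ u v, qip (-u) v = -qip u v := fun u v => by simp [qip]
  rw [Subgroup.coe_mul, Subgroup.coe_mul, Perm.mul_apply, Perm.mul_apply, iso', NN_ap, NN_ap, this, this, iso']

theorem NN_sq : NN * NN = 1 := ext_ap fun x => by simp [NN_ap]

theorem ZZ_eq : ZZ = NN * RR 0 := ext_ap fun x => by funext t; fin_cases t <;> simp [NN_ap, ZZ_ap, RR_ap]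

theorem RR_two : RR 2 = NN * RR 0 * RR 1 := ext_ap fun x => by funext t; fin_cases t <;> simp [NN_ap, RR_ap]

theorem diag_of {g : twoJ2} {t : Fin 3} (h : g * RR t = RR t * g) :
    ∃ w ∈ icosians, normSq w = 1 ∧ ∀ x, (g.1 x).1 t = x.1 t * w := by
  obtain ⟨u, h1, h2⟩ := line_of ((conj_rho g⁻¹ _ _).symm.trans (show g⁻¹ * RR t * g⁻¹⁻¹ = RR t by
    rw [inv_inv, mul_assoc, ← h, inv_mul_cancel_left]))
  have e : ∀ x, (g.1 x).1 t = x.1 t * star u := fun x => mul_right_cancel₀ two_ne (by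
    rw [← qip_ee, iso', qip_eq, h2, h2, h2]
    fin_cases t <;> simp [ee] <;> noncomm_ring)
  refine ⟨star u, ?_, by simpa using h1, e⟩
  obtain ⟨x, hx⟩ : ∃ x : icoLeech, x.1 t = 1 := by fin_cases t; exacts [⟨bv0, rfl⟩, ⟨av, rfl⟩, ⟨av, rfl⟩]
  simpa [e, hx] using (g.1 x).2.1 t

theorem diag {g : twoJ2} (h0 : g * RR 0 = RR 0 * g) (h1 : g * RR 1 = RR 1 * g) :
    ∃ u ∈ icosians, ∃ a ∈ icosians, ∃ b, normSq u = 1 ∧ normSq a = 1 ∧
      ∀ x, (g.1 x).1 = ![x.1 0 * u, x.1 1 * a, x.1 2 * b] := by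
  obtain ⟨u, u1, u2, u3⟩ := diag_of h0
  obtain ⟨a, a1, a2, a3⟩ := diag_of h1
  obtain ⟨b, -, -, b3⟩ := diag_of (t := 2) (g := g) (RR_two ▸ ((show Commute g NN from NN_comm g).mul_right h0).mul_right h1)
  exact ⟨u, u1, a, a1, b, u2, a2, fun x => funext fun t => by fin_cases t <;> simp [u3, a3, b3]⟩

theorem classify {v : icoLeech} (h : qip v v = 4) (h0 : v.1 0 = 0) : ∃ j, rho v h = XX j ∨ rho v h = ZZ * XX j := by
  obtain ⟨a, ha, e1⟩ := li_neg v.2.2.1
  obtain ⟨b, hb, e2⟩ := li_add (li_neg v.2.2.1) (li_neg v.2.2.2.1)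
  rw [h0, zero_sub, neg_neg] at e1 e2
  rw [neg_sub, add_sub_cancel] at e2
  have hn : normSq icoH = 2 := by simpa [self_mul_star] using congrArg (·.re) hh
  have e3 : normSq a + normSq b = 2 := by
    have := congrArg (·.re) h
    simp only [qip_eq, self_mul_star] at this
    simp [h0, e1, e2, hn] at this
    linarith
  obtain ⟨m, n, f1, f2, f3⟩ := normSq_mem ha
  obtain ⟨m', n', g1, g2, g3⟩ := normSq_mem hb
  obtain ⟨k1, k2⟩ := irr (a := m + m' - 2) (b := n + n') (by push_cast; linarith)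
  by_cases hm : m = 0
  · refine ⟨4, .inr (ext_ap fun x => ?_)⟩
    rw [rho1 h 2 fun s hs => by fin_cases s <;> simp_all]
    funext t; fin_cases t <;> simp [XX, ZZ_ap, RR_ap]
  by_cases hm' : m' = 0
  · exact ⟨4, .inl (ext_ap fun x => (rho1 h 1 (fun s hs => by fin_cases s <;> simp_all) x).trans (RR_ap 1 x).symm)⟩
  obtain rfl : m = 1 := by omega
  obtain rfl : m' = 1 := by omega
  obtain rfl : n' = -n := by omega
  obtain rfl : n = 0 := by
    have h1 := normSq_nonneg (a := a)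
    have h2 := normSq_nonneg (a := b)
    have := one_lt_tau
    push_cast at f1 g1
    have h3 : (-1 : ℝ) < n := by nlinarith
    have h4 : (n : ℝ) < 1 := by nlinarith
    have : -1 < n := by exact_mod_cast h3
    have : n < 1 := by exact_mod_cast h4
    omega
  simp only [Int.cast_one, Int.cast_zero, zero_mul, add_zero, neg_zero] at f1 g1
  obtain ⟨w, hw, e4⟩ := qip_mem v.2 av.2
  simp only [qip_eq, h0, av, zero_mul, zero_add, Matrix.cons_val_one, Matrix.cons_val, star_one, mul_one] at e4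
  have a1 : star a * a = 1 := by rw [star_mul_self, f1]; rfl
  have a2 : a * star a = 1 := by rw [self_mul_star, f1]; rfl
  obtain ⟨c, hc⟩ : ∃ c, c = star icoH * (star a * w) - 1 := ⟨_, rfl⟩
  have c1 : v.1 2 = v.1 1 * c := by
    rw [hc, mul_sub, mul_one, eq_sub_iff_add_eq', e4, e1, mul_assoc, ← mul_assoc icoH, hh,
      show a * (2 * (star a * w)) = a * star a * w * 2 by noncomm_ring, a2, one_mul]
  have c2 : normSq c = 1 := by simpa [e1, e2, f1, g1, hn] using congrArg normSq c1.symm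
  obtain ⟨i, e⟩ := unit_int (x := c) (.inr fun i => by
    obtain ⟨d, hd, e5⟩ := h_cq i
    have e6 : icoH * (c - cq i) = (star a * w - d) * 2 := by
      rw [sub_mul, ← e5, hc, mul_sub, mul_sub, ← mul_assoc, hh]; noncomm_ring
    obtain ⟨m, n, e7, -⟩ := normSq_mem (sub_mem (mul_mem (star_mem' ha) hw) hd)
    have e8 := congrArg normSq e6
    rw [map_mul, map_mul, hn, e7, sub_eq_add_neg, normSq_add, normSq_neg, c2, cq_norm, ← two_coe, normSq_coe] at e8
    exact ⟨1 - m, -n, by simp at e8 ⊢; linarith⟩) c2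
  refine ⟨i.castSucc, e.imp (fun e => ext_ap fun x => ?_) fun e => ext_ap fun x => ?_⟩ <;>
    rw [rho12 h c2 h0 c1, e, show XX i.castSucc = rc i by fin_cases i <;> rfl]
  · rw [rc_ap]
  · simp [ZZ_ap, rc_ap]

end Cfsg.Lib.JJ
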