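import Cfsg.Agent.Lib.J2.Cliff

/-!
# The Sylow 2-subgroup of `2^{1+4}_- : A₅`
-/

set_option autoImplicit false

namespace Cfsg.Lib.JJ
open Subgroup Cfsg.Lib Cfsg.Lib.FT Cfsg.Lib.FT.O4 Equiv

@[ext] structure M7 where
  q : Qm
  i : Bool
  j : Bool
  deriving DecidableEq, Fintype

def acA (p : Qm) : Qm := ⟨p.e ^^ (p.a && p.b) ^^ (p.c && p.d), p.b, p.a, p.d, p.c⟩
def acB (p : Qm) : Qm := ⟨p.e ^^ ((p.a ^^ p.b) && (p.c ^^ p.d)), p.c, p.d, p.a, p.b⟩
def ac4 (i j : Bool) (p : Qm) : Qm := cond i acA id (cond j acB id p)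

instance : Mul M7 := ⟨fun m n => ⟨m.q * ac4 m.i m.j n.q, m.i ^^ n.i, m.j ^^ n.j⟩⟩
instance : One M7 := ⟨⟨1, false, false⟩⟩
instance : Inv M7 := ⟨fun m => ⟨ac4 m.i m.j m.q⁻¹, m.i, m.j⟩⟩

def toH (m : M7) : H0 := ⟨m.q, ⟨sg m.i m.j, (d_sg _ _).1⟩⟩

theorem toH_mul (m n : M7) : toH (m * n) = toH m * toH n :=
  SemidirectProduct.ext (congrArg (m.q * ·) ((by decide +kernel : ∀ i j q,
    ac4 i j q = kf (fun k => xm (sg i j k)) zm q) m.i m.j n.q))
    (Subtype.ext ((by decide +kernel : ∀ i j k l, sg (i ^^ k) (j ^^ l) = sg i j * sg k l) m.i m.j n.i n.j))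

theorem toH_inj : Function.Injective toH := fun m n e => by
  obtain ⟨h1, h2⟩ := d_sg_inj _ _ _ _ (congrArg (·.right.1) e)
  exact M7.ext (congrArg (·.left) e) h1 h2

instance : Group M7 := Group.ofLeftAxioms (fun a b c => toH_inj (by simp only [toH_mul, mul_assoc]))
  (by decide +kernel) (by decide +kernel)

def zt : M7 := ⟨zm, false, false⟩
def xt (k : Fin 5) : M7 := ⟨xm k, false, false⟩
def inQ (m : M7) : Prop := m.i = false ∧ m.j = false
instance (m : M7) : Decidable (inQ m) := by unfold inQ; infer_instance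
def wq (v : V5) : M7 := (if v 0 = 1 then xt 0 else 1) * (if v 1 = 1 then xt 1 else 1) *
  (if v 2 = 1 then xt 2 else 1) * (if v 3 = 1 then xt 3 else 1) * (if v 4 = 1 then xt 4 else 1)

theorem card_M7 : Nat.card M7 = 128 := by rw [Nat.card_eq_fintype_card]; decide +kernel
theorem cl0_t : Cl0 xt zt :=
  ⟨by decide, by decide, by decide +kernel, by decide, by decide +kernel, by decide⟩
theorem fZ : ∀ m : M7, (∀ k, m * xt k = xt k * m) → m = 1 ∨ m = zt := by decide +kernel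
theorem fU : ∀ b : M7, Xor (b * xt 0 * xt 4 = xt 4 * (b * xt 0)) (b * xt 4 = xt 4 * b) := by decide +kernel
theorem fA : ∀ t : M7, t * t = 1 → t * xt 4 = xt 4 * t → t = 1 ∨ t = zt ∨ (t = xt 4 ∨ t = zt * xt 4) ∨
    ∀ p, p * t = t * p → p * p = 1 ∧ p * xt 4 = xt 4 * p := by decide +kernel
theorem fB : ∀ p : M7, p * p * (p * p) = 1 → p * p = 1 ∨ p * p = zt ∨ p * p = xt 4 ∨ p * p = zt * xt 4 := by
  decide +kernel
theorem fB' : ∀ w : M7, (w = zt ∨ w = xt 4 ∨ w = zt * xt 4) → ∃ p, p * xt 4 = xt 4 * p ∧ p * p = w := by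
  decide +kernel
theorem fC : ∀ t : M7, t * t = 1 → t * xt 4 = xt 4 * t ∨ ∃ k, t = xt k ∨ t = zt * xt k := by decide +kernel
theorem fD : ∀ t : M7, inQ t → t * t = 1 → t = 1 ∨ t = zt ∨ ∃ k, t = xt k ∨ t = zt * xt k := by decide +kernel
theorem fE : ∀ a : M7, ¬ inQ a → (a * a = 1 ∨ a * a = zt) → a * a = 1 ∧ xt 4 * a = a * xt 4 ∧
    ∃ u, u * a * u⁻¹ = zt * a ∧ u * xt 4 = xt 4 * u := by decide +kernel
theorem fG : ∀ m : M7, Ac xt zt m (sg m.i m.j) := by unfold Ac; decide +kernel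
theorem wq_add : ∀ u v, wq (u + v) = wq u * wq v ∨ wq (u + v) = zt * (wq u * wq v) := by decide +kernel
theorem wq_mem : ∀ m, inQ m ↔ ∃ v, m = wq v ∨ m = zt * wq v := by decide +kernel
theorem wq_ker : ∀ v, (wq v = 1 ∨ wq v = zt * 1) ↔ v = 0 ∨ v = 1 := by decide +kernel
theorem wq_e : ∀ i, wq (e5 i) = xt i := by decide +kernel

theorem exists_sylEmb {X : Type*} [Group X] [Finite X] {x : Fin 5 → X} {z : X} (h : Cl x z) :
    ∃ ι : M7 →* X, Function.Injective ι ∧ IsSylowIn 2 ι.range ⊤ ∧ ι zt = z := by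
  obtain ⟨e, he⟩ := h.equiv
  let ι : M7 →* X := e.toMonoidHom.comp (MonoidHom.mk' toH toH_mul)
  have hι : Function.Injective ι := e.injective.comp toH_inj
  refine ⟨ι, hι, .of_card_eq le_top ?_, Eq.trans (congrArg e ?_) he⟩
  · rw [← Nat.card_congr (MonoidHom.ofInjective hι).toEquiv, card_M7, card_top, ← Nat.card_congr e.toEquiv,
      SemidirectProduct.card, nat_card_alternatingGroup, show Nat.card Qm = 32 by
        rw [Nat.card_eq_fintype_card]; decide +kernel]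
    simp only [Nat.card_eq_fintype_card, Fintype.card_fin]
    rw [show 32 * (Nat.factorial 5 / 2) = 2 ^ 7 * 15 from rfl, Nat.factorization_mul (by simp) (by simp),
      Nat.prime_two.factorization_pow]
    simp [Nat.factorization_eq_zero_of_not_dvd (show ¬ 2 ∣ 15 by norm_num)]
  · exact SemidirectProduct.ext rfl (Subtype.ext (by decide : sg false false = 1))

end Cfsg.Lib.JJ
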